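/- U4 tower (row S5210): slot Lo, the opposite root group on `W`. -/
import Cfsg.Agent.H28.U4Gen

set_option autoImplicit false
set_option linter.unusedSectionVars false
set_option linter.unusedSimpArgs false
set_option linter.unusedVariables false

open Subgroup H90.RF H92 Cfsg
open H90.U5 (BF DD Bq)
open H28.U4

universe v

namespace H39.U4Lo

variable {K : Type*} [Field K] [Finite K] {T : BF K} {p : ℕ} {G : Subgroup (Equiv.Perm (K × K))}

/-- `Sp` without its last field -/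
structure S0 (T : BF K) (p : ℕ) (G : Subgroup (Equiv.Perm (K × K))) : Prop where
  add : ∀ g ∈ G, ∀ x y, g (x + y) = g x + g y
  semi : ∀ g ∈ G, ∀ l, T.σ l = l → ∃ l', T.σ l' = l' ∧ ∀ x, g (l • x) = l' • g x
  form : ∀ g ∈ G, ∃ ζ : K → K, ζ 0 = 0 ∧
    (∀ x y, bf T (g x) (g y) = ζ (bf T x y)) ∧ ((2 : K) = 0 → ∀ x, qf T (g x) = ζ (qf T x))
  uu : ∀ b, T.σ b = b → ub b ∈ G
  pel : ∀ g ∈ G, PL g → (∃ k : ℕ, g ^ p ^ k = 1) → ∃ b, T.σ b = b ∧ g = ub b

theorem S0.of (h : Sp T p G) : S0 T p G :=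
  ⟨h.add, h.semi, fun g hg => let ⟨ζ, a, _, b, c⟩ := h.form g hg; ⟨ζ, a, b, c⟩, h.uu, h.pel⟩

theorem tg_add (γ : K) (x y : K × K) : tg T γ (x + y) = tg T γ x + tg T γ y := by
  ext <;> simp [tg_apply]; ring
theorem tg_smul (γ : K) {l : K} (hl : T.σ l = l) (x : K × K) : tg T γ (l • x) = l • tg T γ x := by
  ext <;> simp [tg_apply, hl]; ring
theorem bf_tg (γ : K) (x y : K × K) : bf T (tg T γ x) (tg T γ y) = bf T x y := by
  simp [tg_apply, bf, T.sq]; ring
theorem tg_ub (γ b : K) : tg T γ * ub b = ub b * tg T γ := by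
  ext w <;> simp [tg_apply, ub_apply]; ring
theorem pl_tg (γ : K) : PL (tg T γ) := fun w hw => hw
theorem tg_L0 (γ : K) {w : K × K} (hw : w.1 = 0) : tg T γ w = w := by
  ext <;> simp [tg_apply, hw]

theorem cw_apply (γ : K) (g : Equiv.Perm (K × K)) (w : K × K) :
    g w = tg T (-γ) ((tg T γ * g * (tg T γ)⁻¹) (tg T γ w)) := by
  rw [← tg_inv]; simp

theorem S0.cw (h : S0 T p G) {γ : K} (hγ : (2 : K) = 0 → γ = 0) : S0 T p (cW (tg T γ) G) := by
  refine ⟨fun g hg x y => ?_, fun g hg l hl => ?_, fun g hg => ?_, fun b hb => ?_, fun g hg a ⟨k, hk⟩ => ?_⟩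
  · rw [cw_apply (T := T) γ g, tg_add, h.add _ (mem_cW.1 hg), tg_add, ← cw_apply, ← cw_apply]
  · obtain ⟨l', h1, h2⟩ := h.semi _ (mem_cW.1 hg) l hl
    exact ⟨l', h1, fun x => by rw [cw_apply (T := T) γ g, tg_smul _ hl, h2, tg_smul _ h1, ← cw_apply]⟩
  · obtain ⟨ζ, h0, h1, h2⟩ := h.form _ (mem_cW.1 hg)
    refine ⟨ζ, h0, fun x y => by
      rw [cw_apply (T := T) γ g x, cw_apply (T := T) γ g y, bf_tg, h1, bf_tg], fun h2' x => ?_⟩
    have := h2 h2' x
    simpa [hγ h2', tg_zero] using this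
  · rw [mem_cW, tg_ub, mul_inv_cancel_right]; exact h.uu b hb
  · obtain ⟨b, hb, e⟩ := h.pel _ (mem_cW.1 hg) (((pl_tg γ).mul a).mul (pl_tg γ).inv) ⟨k, by rw [conj_pow, hk]; simp⟩
    refine ⟨b, hb, ?_⟩
    rw [mul_inv_eq_iff_eq_mul, ← tg_ub] at e
    exact mul_left_cancel e

theorem opp_cw (h : Opp G) (γ : K) : Opp (cW (tg T γ) G) := fun g hg => by
  have e : ∀ w : K × K, w.1 = 0 → ((tg T γ * g * (tg T γ)⁻¹) w).1 = (g w).1 := fun w hw => by
    rw [tg_inv, Equiv.Perm.mul_apply, tg_L0 _ hw]; rfl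
  rcases h _ (mem_cW.1 hg) with a | a
  · exact Or.inl fun w hw => (e w hw).symm.trans (a w hw)
  · exact Or.inr fun w hw k => a w hw ((e w hw).trans k)

theorem S0.zero (h : S0 T p G) {g : Equiv.Perm (K × K)} (hg : g ∈ G) : g 0 = 0 := by
  have := h.add g hg 0 0
  rw [add_zero] at this
  exact left_eq_add.1 this

theorem S0.semi' (h : S0 T p G) {g : Equiv.Perm (K × K)} (hg : g ∈ G) {t : K} (ht : T.σ t = t) :
    ∃ l, T.σ l = l ∧ ∀ x, g (l • x) = t • g x := by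
  obtain ⟨l, h1, h2⟩ := h.semi _ (inv_mem hg) t ht
  exact ⟨l, h1, fun x => by
    have := congrArg g (h2 (g x))
    simpa using this.symm⟩

theorem sym_fix {β γ : K} (h : bf T (T.ω, β * T.ω + γ * T.σ T.ω) (1, β * 1 + γ * T.σ 1) = 0) :
    T.σ β = β := by
  have := T.ne
  simp only [bf, map_add, map_mul, map_one, T.sq] at h
  have e : (T.σ β - β) * (T.σ T.ω - T.ω) = 0 := by linear_combination -h
  exact sub_eq_zero.1 ((mul_eq_zero.1 e).resolve_right (sub_ne_zero.2 this))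

theorem two_zero (h2 : (2 : K) = 0) {β γ : K} (hβ : T.σ β = β)
    (h : ∀ a, qf T (a, β * a + γ * T.σ a) = 0) : γ = 0 := by
  have h1 := h 1
  have h3 := h T.ω
  simp only [qf, map_add, map_mul, map_one, T.sq, hβ] at h1 h3
  have e : γ * (T.σ T.ω - T.ω) ^ 2 = 0 := by
    linear_combination h3 - T.ω ^ 2 * h1 +
      (β * T.ω ^ 2 - β * T.ω * T.σ T.ω + γ * T.ω ^ 2 - γ * T.ω * T.σ T.ω) * h2
  exact (mul_eq_zero.1 e).resolve_right (pow_ne_zero _ (sub_ne_zero.2 T.ne))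

/-- the image of the line is a graph -/
theorem S0.graph (h : S0 T p G) {g : Equiv.Perm (K × K)} (hg : g ∈ G)
    (o : ∀ w : K × K, w.1 = 0 → (g w).1 = 0 → w = 0) :
    ∃ β γ, T.σ β = β ∧ ((2 : K) = 0 → γ = 0) ∧
      ∀ w : K × K, w.1 = 0 → (g w).2 = β * (g w).1 + γ * T.σ (g w).1 := by
  have ad : ∀ c c' : K, g (0, c + c') = g (0, c) + g (0, c') := fun c c' => by
    rw [← h.add g hg]; simp
  have inj : Function.Injective fun c : K => (g (0, c)).1 := fun c c' e => by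
    have k := ad (c - c') c'
    rw [sub_add_cancel] at k
    have := o (0, c - c') rfl (by
      have := congrArg Prod.fst k
      simp only [Prod.fst_add] at this e
      linear_combination e - this)
    exact sub_eq_zero.1 (congrArg Prod.snd this)
  choose f hf using Finite.surjective_of_injective inj
  simp only at hf
  obtain ⟨β, γ, e⟩ := T.exists_lin (fun a => (g (0, f a)).2) (fun x y => by
    have : f (x + y) = f x + f y := inj (by simp only [ad, hf, Prod.fst_add])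
    simp only [this, ad, Prod.snd_add]) fun l x => by
    obtain ⟨l', -, k⟩ := h.semi' hg l.2
    have k' := k (0, f x)
    simp only [Prod.smul_mk, smul_eq_mul, mul_zero] at k'
    have : f (l * x) = l' * f x := inj (by simp only [k', hf, Prod.smul_fst, smul_eq_mul])
    simp only [this, k', Prod.smul_snd, smul_eq_mul]
  have e' : ∀ a, g (0, f a) = (a, β * a + γ * T.σ a) := fun a => Prod.ext (hf a) (e a)
  obtain ⟨ζ, h0, h1, h2⟩ := h.form g hg
  have hβ : T.σ β = β := sym_fix (γ := γ) (by rw [← e', ← e', h1]; simpa [bf] using h0)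
  refine ⟨β, γ, hβ, fun h2' => two_zero h2' hβ fun a => by rw [← e', h2 h2']; simpa [qf] using h0,
    fun ⟨a, c⟩ hw => ?_⟩
  obtain rfl : a = 0 := hw
  have : f (g (0, c)).1 = c := inj (hf _)
  rw [← e, this]

variable (T) in
/-- the opposite root elements -/
def lm (μ ν : K) : Equiv.Perm (K × K) :=
  ⟨fun w => (w.1 + (μ * w.2 + ν * T.σ w.2), w.2), fun w => (w.1 - (μ * w.2 + ν * T.σ w.2), w.2),
    fun w => by simp, fun w => by simp⟩

theorem lm_apply (μ ν : K) (w : K × K) : lm T μ ν w = (w.1 + (μ * w.2 + ν * T.σ w.2), w.2) := rfl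
theorem lm_inv_apply (μ ν : K) (w : K × K) : (lm T μ ν)⁻¹ w = (w.1 - (μ * w.2 + ν * T.σ w.2), w.2) := rfl
theorem lm_pow (μ ν : K) (n : ℕ) : lm T μ ν ^ n = lm T (n * μ) (n * ν) := by
  induction n with
  | zero => ext w <;> simp [lm_apply]
  | succ n ih => rw [pow_succ, ih]; ext w <;> simp [lm_apply]; ring
theorem lm_p [CharP K p] (μ ν : K) : lm T μ ν ^ p = 1 := by
  rw [lm_pow, CharP.cast_eq_zero]; ext w <;> simp [lm_apply]

theorem lm_fix {μ ν : K} {w : K × K} (h : w.2 = 0) : lm T μ ν w = w := by ext <;> simp [lm_apply, h]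

theorem exists_rt {s τ Δ : K} (hs : T.σ s = s) (hτ : T.σ τ = τ) (hΔ : T.σ Δ = Δ) (s0 : s ≠ 0) (Δ0 : Δ ≠ 0)
    (ρ0 : 1 + s * τ + s ^ 2 * Δ ≠ 0) : ∃ r, T.σ r = r ∧ ∃ t, T.σ t = t ∧ s * r * t * Δ = 1 ∧
      r * t - s * t + s + s * r * t * τ = 0 := by
  obtain ⟨ρ, hρ⟩ : ∃ ρ, ρ = 1 + s * τ + s ^ 2 * Δ := ⟨_, rfl⟩
  have : T.σ ρ = ρ := by simp [hρ, hs, hτ, hΔ]
  rw [← hρ] at ρ0
  refine ⟨s / ρ, by simp [hs, this], ρ / (s ^ 2 * Δ), by simp [hs, hΔ, this], by field_simp, ?_⟩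
  field_simp
  rw [hρ]; ring

/-- the opposite root group, up to the map `M` -/
theorem S0.exists_lm (h : S0 T p G) {g : Equiv.Perm (K × K)} (hg : g ∈ G)
    (o : ∀ w : K × K, w.1 = 0 → (g w).2 = 0) :
    ∃ μ ν, T.σ μ = μ ∧ ((2 : K) = 0 → ν = 0) ∧ μ ^ 2 - ν * T.σ ν ≠ 0 ∧
      ∀ t, T.σ t = t → lm T (t * μ) (t * ν) ∈ G := by
  have inj : Function.Injective fun c : K => (g (0, c)).1 := fun c c' e =>
    congrArg Prod.snd (g.injective (Prod.ext e ((o _ rfl).trans (o _ rfl).symm)))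
  have o' : ∀ a : K, (g⁻¹ (a, 0)).1 = 0 := fun a => by
    obtain ⟨c, hc⟩ := Finite.surjective_of_injective inj a
    have : g (0, c) = (a, 0) := Prod.ext hc (o _ rfl)
    rw [← this]; simp
  let M : K → K := fun c => (g (0, (g⁻¹ (0, c)).1)).1
  have key : ∀ t, T.σ t = t → ∃ x ∈ G, ∀ w : K × K, x w = (w.1 + t * M w.2, w.2) := fun t ht => by
    obtain ⟨l, hl, e⟩ := h.semi' hg ht
    refine ⟨g * ub l * g⁻¹, mul_mem (mul_mem hg (h.uu l hl)) (inv_mem hg), fun w => ?_⟩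
    have e1 : ub l (g⁻¹ w) = g⁻¹ w + l • ((0 : K), (g⁻¹ w).1) := by ext <;> simp [ub_apply]
    have e2 : (g⁻¹ w).1 = (g⁻¹ (0, w.2)).1 := by
      have := h.add _ (inv_mem hg) (w.1, 0) (0, w.2)
      simp only [Prod.mk_add_mk, add_zero, zero_add, Prod.mk.eta] at this
      rw [this, Prod.fst_add, o', zero_add]
    rw [Equiv.Perm.mul_apply, Equiv.Perm.mul_apply, e1, h.add g hg, e, e2]
    ext
    · simp [M]
    · rw [Prod.snd_add, Prod.smul_snd, o (0, _) rfl]; simp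
  have Minj : ∀ c, M c = 0 → c = 0 := fun c hc => by
    have e : g (0, (g⁻¹ (0, c)).1) = g 0 := by rw [h.zero hg]; exact Prod.ext hc (o _ rfl)
    have := o _ (congrArg Prod.snd (g.injective e))
    simpa using this
  obtain ⟨x, hx, ex⟩ := key 1 (map_one _)
  obtain ⟨μ, ν, e⟩ := T.exists_lin M (fun c c' => by
    have := congrArg Prod.fst (h.add x hx (0, c) (0, c'))
    simpa [ex] using this) fun l c => by
    obtain ⟨l', -, k⟩ := h.semi x hx l l.2
    have k1 := congrArg Prod.snd (k (0, 1))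
    have k2 := congrArg Prod.fst (k (0, c))
    simp only [ex, Prod.smul_mk, smul_eq_mul, mul_one, one_mul, mul_zero, zero_add] at k1 k2
    rw [k2, k1]
  have ex' : ∀ c, x (0, c) = (μ * c + ν * T.σ c, c) := fun c => by simp [ex, e]
  obtain ⟨ζ, h0, h1, h2⟩ := h.form x hx
  have hμ : T.σ μ = μ := sym_fix (γ := ν) (by
    have := h1 (0, T.ω) (0, 1)
    rw [ex', ex'] at this
    simp only [bf, map_zero, mul_zero, zero_mul, add_zero, sub_zero, h0] at this ⊢
    linear_combination -this)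
  refine ⟨μ, ν, hμ, fun h2' => two_zero h2' hμ fun c => ?_, ?_, fun t ht => ?_⟩
  · have := h2 h2' (0, c)
    rw [ex'] at this
    simp only [qf, map_zero, mul_zero, zero_mul, add_zero, h0] at this ⊢
    linear_combination this
  · intro k
    have k2 := T.lin_zero (x := μ) (y := -ν) fun c => Minj _ (by
      rw [e]; simp only [map_add, map_mul, map_neg, T.sq, hμ]; linear_combination c * k)
    exact one_ne_zero (Minj 1 (by rw [e, k2.1, neg_eq_zero.1 k2.2]; simp))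
  · obtain ⟨y, hy, ey⟩ := key t ht
    convert hy using 1
    ext w <;> simp [ey, lm_apply, e]; ring

/-- the final relation -/
theorem fin_rel {μ ν s κ : K} (hμ : T.σ μ = μ) (hs : T.σ s = s) (hν : ν ≠ 0)
    (hΔ : μ ^ 2 - ν * T.σ ν ≠ 0) (hsΔ : s ^ 2 * (μ ^ 2 - ν * T.σ ν) ≠ 1)
    (h : ∀ c, ((lm T μ ν * ub s * lm T μ ν * (lm T μ ν * ub s)⁻¹) (0, c)).1 =
      κ * (μ * (μ * c + ν * T.σ c) + ν * T.σ (μ * c + ν * T.σ c))) : False := by
  have k := T.lin_zero
    (x := (1 - s ^ 2 * (μ ^ 2 - ν * T.σ ν) + (2 * s + s ^ 2 * (2 * μ) - κ) * (2 * μ)) * μ -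
      (2 * s + s ^ 2 * (2 * μ) - κ) * (μ ^ 2 - ν * T.σ ν))
    (y := (1 - s ^ 2 * (μ ^ 2 - ν * T.σ ν) + (2 * s + s ^ 2 * (2 * μ) - κ) * (2 * μ)) * ν) fun c => by
    have := h c
    simp only [mul_inv_rev, Equiv.Perm.mul_apply, ub_inv, lm_inv_apply, ub_apply, lm_apply, map_add, map_sub,
      map_mul, map_neg, map_zero, T.sq, hμ, hs] at this
    linear_combination this
  have k1 := (mul_eq_zero.1 k.2).resolve_right hν
  have k2 : 2 * s + s ^ 2 * (2 * μ) - κ = 0 := by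
    have := k.1
    rw [k1, zero_mul, zero_sub, neg_eq_zero] at this
    exact (mul_eq_zero.1 this).resolve_right hΔ
  rw [k2] at k1
  exact hsΔ (by linear_combination -k1)

theorem S0.nu_zero [CharP K p] (h : S0 T p G) (o : Opp G) (hB : Big T) {μ ν : K} (hμ : T.σ μ = μ)
    (hΔ : μ ^ 2 - ν * T.σ ν ≠ 0) (hl : ∀ t, T.σ t = t → lm T (t * μ) (t * ν) ∈ G) : ν = 0 := by
  by_contra hν
  obtain ⟨s, hs, hs0, hsΔ⟩ : ∃ s, T.σ s = s ∧ s ≠ 0 ∧ s ^ 2 * (μ ^ 2 - ν * T.σ ν) ≠ 1 := by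
    by_cases k : μ ^ 2 - ν * T.σ ν = 1
    · obtain ⟨l, a, b, c, d⟩ := hB
      exact ⟨l, a, b, by rw [k, mul_one]; simpa [c] using d⟩
    · exact ⟨1, map_one _, one_ne_zero, by simpa using k⟩
  have h1 : lm T μ ν ∈ G := by simpa using hl 1 (map_one _)
  have hA := mul_mem h1 (h.uu s hs)
  have hx := mul_mem (mul_mem hA h1) (inv_mem hA)
  have s2 : T.σ 2 = 2 := map_ofNat _ 2
  by_cases hρ : 1 + s * (2 * μ) + s ^ 2 * (μ ^ 2 - ν * T.σ ν) = 0
  · rcases o _ hx with a | a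
    · exact fin_rel (κ := 0) hμ hs hν hΔ hsΔ fun c => by rw [zero_mul]; exact a _ rfl
    · have k := T.lin_zero (x := 1 + s * μ) (y := -(s * ν)) fun c => by
        have := congrArg Prod.snd (a (0, (1 + s * μ) * c + -(s * ν) * T.σ c) rfl (by
          simp only [mul_inv_rev, Equiv.Perm.mul_apply, ub_inv, lm_inv_apply, ub_apply, lm_apply, map_add,
            map_sub, map_mul, map_neg, map_zero, map_one, T.sq, hμ, hs]
          linear_combination ((μ * c + ν * T.σ c) + s * (μ * (μ * c + ν * T.σ c) +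
            ν * (μ * T.σ c + T.σ ν * c))) * hρ))
        exact this
      exact mul_ne_zero hs0 hν (neg_eq_zero.1 k.2)
  · obtain ⟨r, hr, t, ht, e1, e2⟩ : ∃ r, T.σ r = r ∧ ∃ t, T.σ t = t ∧ s * r * t * (μ ^ 2 - ν * T.σ ν) = 1 ∧
        r * t - s * t + s + s * r * t * (2 * μ) = 0 := by
      exact exists_rt hs (by rw [map_mul, s2, hμ])
        (by simp only [map_mul, map_sub, map_pow, T.sq, hμ]; ring) hs0 hΔ hρ
    have hg := mul_mem (h.uu r hr) (hl t ht)
    set A := lm T μ ν * ub s with hA'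
    set g := ub r * lm T (t * μ) (t * ν) with hg'
    have hy := mul_mem (mul_mem (inv_mem hg) hx) hg
    have ey : g⁻¹ * (A * lm T μ ν * A⁻¹) * g = (g⁻¹ * A) * lm T μ ν * (g⁻¹ * A)⁻¹ := by group
    obtain ⟨b, hb, e⟩ := h.pel _ hy (fun ⟨a, c⟩ hw => by
      obtain rfl : a = 0 := hw
      have k : ((g⁻¹ * A)⁻¹ (0, c)).2 = 0 := by
        simp only [hA', hg', mul_inv_rev, inv_inv, Equiv.Perm.mul_apply, ub_inv, lm_inv_apply, ub_apply,
          lm_apply, map_add, map_sub, map_mul, map_neg, map_zero, map_one, T.sq, hμ, hs, hr, ht]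
        linear_combination (-c) * e1 + (μ * c + ν * T.σ c) * e2
      rw [ey, Equiv.Perm.mul_apply, Equiv.Perm.mul_apply, lm_fix k, ← Equiv.Perm.mul_apply,
        mul_inv_cancel]
      rfl) ⟨1, by rw [pow_one, ey, conj_pow, lm_p]; simp⟩
    refine fin_rel (κ := -(b * t ^ 2)) hμ hs hν hΔ hsΔ fun c => ?_
    rw [← hA', show A * lm T μ ν * A⁻¹ = g * ub b * g⁻¹ by rw [← e]; group]
    simp only [hg', mul_inv_rev, inv_inv, Equiv.Perm.mul_apply, ub_inv, lm_inv_apply, ub_apply,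
      lm_apply, map_add, map_sub, map_mul, map_neg, map_zero, map_one, T.sq, hμ, hs, hr, ht, hb]
    ring

theorem jobLo : JobLo.{v} := fun p _ K _ _ _ T hc G h o g hg m => by
  have h0 := S0.of h
  obtain ⟨β, γ, hβ, hγ, e⟩ := h0.graph hg ((o g hg).resolve_left m)
  refine ⟨β, γ, hβ, hγ, e, fun t ht => ?_⟩
  have h1 := h0.cw hγ
  have hg' : tg T (-γ) * (ub (-β) * g) * tg T γ ∈ cW (tg T γ) G := by
    rw [mem_cW, ← tg_inv]
    simpa [mul_assoc] using mul_mem (h.uu (-β) (by rw [map_neg, hβ])) hg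
  obtain ⟨μ, ν, hμ, hν, hΔ, hl⟩ := h1.exists_lm hg' fun w hw => by
    simp only [Equiv.Perm.mul_apply, tg_L0 _ hw, tg_apply, ub_apply, e w hw]; ring
  obtain rfl : ν = 0 := hc.elim hν fun hB => h1.nu_zero (opp_cw o γ) hB hμ hΔ hl
  have hμ0 : μ ≠ 0 := fun k => hΔ (by simp [k])
  convert hl (t / μ) (by rw [map_div₀, ht, hμ]) using 1
  ext w <;> simp [lb_apply, lm_apply, hμ0]

end H39.U4Lo
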