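/- C3 tower (row S5227), slot A12: automorphisms of `E₁`, `E₂` and `A` (blueprints/C3.md). -/
import Cfsg.Agent.H20.C3Spec

set_option autoImplicit false
set_option linter.unusedSectionVars false
set_option linter.unusedSimpArgs false

open Subgroup H90.RF H20.C3

namespace H39.C3A

variable {s m u : Co} {E X Y U : Subgroup Co} {β : Co → Co}

theorem cmA (s : Co) (hm : m ∈ sA) : cm s m = vv 0 (m.c * s.b) (m.c * s.d + m.e * s.a)
    (2 * m.e * s.b + m.c * s.b ^ 2) (m.e * s.d + m.f * s.b + m.g * s.a + m.c * s.b * s.d + m.e * s.a * s.b)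
    (2 * m.f * s.d + 2 * m.h * s.a + m.c * s.d ^ 2 + 2 * m.e * s.a * s.d + m.g * s.a ^ 2) := by
  obtain ⟨h1, h2, h3⟩ := hm
  ext <;> simp [vv, H20.C3.cm_d, H20.C3.cm_e, cm_f, cm_g, cm_h, cm_z, h1, h2, h3]

theorem vvA (c e f g h z : F3) : vv c e f g h z ∈ sA := ⟨rfl, rfl, rfl⟩

theorem cm_mem (s : Co) (hm : m ∈ sA) : cm s m ∈ sA := cmA s hm ▸ vvA ..

theorem two_ne : (2 : F3) ≠ 0 := by decide

theorem cmAA (hs : s ∈ sA) (hm : m ∈ sA) : cm s m = 1 := by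
  rw [cmA s hm]; ext <;> simp [vv, hs.1, hs.2.1, hs.2.2]

theorem cm_mem' (hs : s ∈ sA) (m : Co) : cm s m ∈ sA := by
  simp [mem_sA, H20.C3.cm_d, hs.1, hs.2.1]

theorem ach : Ach := fun E hE β h x hx => by
  have k : ∀ y ∈ sA, cm (β x) (cm (β x) y) = 1 := fun y hy => by
    obtain ⟨w, hw, rfl⟩ := h.sur y (hE hy)
    rw [← h.cm (hE hx) hw, ← h.cm (hE hx) (hE (cm_mem' hx w)), cmAA hx (cm_mem' hx w), h.one]
  generalize β x = t at k
  have k1 := k (vv 0 0 0 1 0 0) (vvA ..)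
  have k2 := k (vv 1 0 0 0 0 0) (vvA ..)
  rw [cmA t (vvA ..), cmA t (vvA ..)] at k1 k2
  have a0 : t.a = 0 := by simpa [vv, two_ne] using congrArg Co.z k1
  exact ⟨a0, by simpa [vv, two_ne] using congrArg Co.g k2,
    by simpa [vv, two_ne, a0] using congrArg Co.z k2⟩

theorem W2_eq (hu : u ∈ sW2) : u = cm (xd 1) (vv u.f u.h (2 * (u.z - u.f)) 0 0 0) := by
  obtain ⟨h1, h2, h3, h4, h5, h6⟩ := hu
  rw [cmA _ (vvA ..)]
  ext <;> simp [vv, xd, h1, h2, h3, h4, h5, h6]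
  linear_combination (u.f - u.z) * three

theorem Z_eq (hu : u ∈ sZ) : u = cm (xd 1) (vv 0 0 (2 * u.z) 0 0 0) := by
  obtain ⟨h1, h2, h3, h4, h5, h6, h7, h8⟩ := hu
  rw [cmA _ (vvA ..)]
  ext <;> simp [vv, xd, h1, h2, h3, h4, h5, h6, h7, h8]
  linear_combination (-u.z) * three

theorem W2_cm (hs : s ∈ sE2) (hm : m ∈ sA) : cm s m ∈ sW2 := by
  rw [cmA s hm]; simp [mem_sW2, vv, mem_sE2.1 hs]

theorem Z_cm (hs : s ∈ sE2) (hm : m ∈ sW2) : cm s m ∈ sZ := by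
  obtain ⟨h1, h2, h3, h4, h5, h6⟩ := hm
  rw [cmA s ⟨h1, h2, h3⟩]; simp [mem_sZ, vv, mem_sE2.1 hs, h4, h5, h6]

theorem ad : AD := fun α h n => by
  obtain ⟨t, ⟨t1, t2⟩, k⟩ := n (xd 1) ⟨rfl, rfl⟩
  have p : Pr α sA := h.mem
  replace k : ∀ u ∈ sA, α (cm (xd 1) u) = cm t (α u) := fun u hu => by
    have := mul_mem hu (cm_mem (xd 1) hu)
    rw [← conj_eq_cm] at this
    rw [cm, h.mul _ (inv_mem hu) _ this, h.inv hu, k u hu, cm]
  have t3 : t.d ≠ 0 := fun e => by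
    have := h.inj _ (cm_mem _ (vvA ..)) ((k _ (vvA 1 0 0 0 0 0)).trans (cmAA ⟨t1, t2, e⟩ (p _ (vvA ..))))
    rw [cmA _ (vvA ..)] at this
    simpa [vv, xd] using congrArg Co.f this
  have w2 : Pr α sW2 := fun u hu => by rw [W2_eq hu, k _ (vvA ..)]; exact W2_cm t2 (p _ (vvA ..))
  have z : Pr α sZ := fun u hu => by
    rw [Z_eq hu, k _ (vvA ..)]; exact Z_cm t2 (w2 _ ⟨rfl, rfl, rfl, rfl, rfl, rfl⟩)
  have w : Pr α sW := fun u ⟨h1, h2, h3, h4, h5, h6⟩ => by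
    have hu := p u ⟨h1, h2, h3⟩
    have e := k u ⟨h1, h2, h3⟩
    rw [show cm (xd 1) u = 1 by rw [cmA _ ⟨h1, h2, h3⟩]; ext <;> simp [vv, xd, h4, h5, h6], h.one,
      cmA t hu] at e
    have c0 : (α u).c = 0 := by simpa [vv, t1, t3] using congrArg Co.f e
    exact ⟨hu.1, hu.2.1, hu.2.2, c0, by simpa [vv, t1, t2, t3] using congrArg Co.h e,
      by simpa [vv, t1, t3, c0, two_ne] using congrArg Co.z e⟩
  have z2 : Pr α sZ2 := fun u ⟨h1, h2, h3, h4, h5, h6, h7⟩ =>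
    have a := w u ⟨h1, h2, h3, h4, h5, h6⟩
    ⟨a.1, a.2.1, a.2.2.1, a.2.2.2.1, a.2.2.2.2.1, a.2.2.2.2.2, (w2 u ⟨h1, h2, h3, h4, h5, h7⟩).2.2.2.2.2⟩
  refine ⟨z, z2, w, fun u ⟨h1, h2, h3, h4, h5⟩ => ?_, fun u ⟨h1, h2, h3, h4⟩ => ?_⟩
  · have hu := p u ⟨h1, h2, h3⟩
    have e := z (cm (xd 1) u) (by rw [cmA _ ⟨h1, h2, h3⟩]; simp [mem_sZ, vv, xd, h4, h5])
    rw [k u ⟨h1, h2, h3⟩, cmA t hu] at e
    exact ⟨hu.1, hu.2.1, hu.2.2, by simpa [vv, t1, t3] using e.2.2.2.2.2.1,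
      by simpa [vv, t1, t2, t3] using e.2.2.2.2.2.2.2⟩
  · have hu := p u ⟨h1, h2, h3⟩
    have e := z2 (cm (xd 1) u) (by rw [cmA _ ⟨h1, h2, h3⟩]; simp [mem_sZ2, vv, xd, h4])
    rw [k u ⟨h1, h2, h3⟩, cmA t hu] at e
    exact ⟨hu.1, hu.2.1, hu.2.2, by simpa [vv, t1, t3] using e.2.2.2.2.2.1⟩

theorem AD_le : sA ≤ sD := fun _ h => ⟨h.1, h.2.1⟩

theorem ad' (h : Au E β) (hD : sD ≤ E) (p : Pr β sD) :
    Pr β sZ ∧ Pr β sZ2 ∧ Pr β sW ∧ Pr β sZ3 ∧ Pr β sA5 :=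
  ad β (h.restrict (AD_le.trans hD) (ach E (AD_le.trans hD) β h)) fun s hs =>
    ⟨β s, p s hs, fun _ hu => h.conj (hD hs) (hD (AD_le hu))⟩

/-- an additive function on a one-parameter subgroup -/
theorem lin {f : Co → F3} (hf : ∀ u ∈ E, ∀ w ∈ E, f (u * w) = f u + f w) {x : F3 → Co}
    (hx : ∀ t, x t ∈ E) (ha : ∀ t r, x (t + r) = x t * x r) (t : F3) : f (x t) = f (x 1) * t := by
  rcases tri t with rfl | rfl | rfl
  · simpa [← ha] using hf _ (hx 0) _ (hx 0)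
  · rw [mul_one]
  · rw [← two, ← one_add_one_eq_two, ha, hf _ (hx 1) _ (hx 1)]; ring

theorem lin2 {f : Co → F3} (hf : ∀ u ∈ E, ∀ w ∈ E, f (u * w) = f u + f w) {x y : F3 → Co}
    (hx : ∀ t, x t ∈ E) (ha : ∀ t r, x (t + r) = x t * x r) (hy : ∀ t, y t ∈ E)
    (hb : ∀ t r, y (t + r) = y t * y r) (hU : U ≤ E) (h0 : ∀ u ∈ U, f u = 0) {t r : F3}
    (h : (x t * y r)⁻¹ * u ∈ U) : f u = f (x 1) * t + f (y 1) * r := by
  rw [← mul_inv_cancel_left (x t * y r) u, hf _ (mul_mem (hx t) (hy r)) _ (hU h), h0 _ h, add_zero,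
    hf _ (hx t) _ (hy r), lin hf hx ha, lin hf hy hb]

theorem xa_add (t r : F3) : xa (t + r) = xa t * xa r := by ext <;> simp [xa]
theorem xb_add (t r : F3) : xb (t + r) = xb t * xb r := by ext <;> simp [xb]
theorem xc_add (t r : F3) : xc (t + r) = xc t * xc r := by ext <;> simp [xc]
theorem xd_add (t r : F3) : xd (t + r) = xd t * xd r := by ext <;> simp [xd]
theorem xz_add (t r : F3) : xz (t + r) = xz t * xz r := by ext <;> simp [xz]

theorem a1 : A1 := fun β h => by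
  have l : sA ≤ sE1 := fun _ h => h.1
  have p := ach _ l β h
  have q : Pr β sE1 := h.mem
  have w : Pr β sW := fun u ⟨h1, h2, h3, h4, h5, h6⟩ => by
    have hu := p u ⟨h1, h2, h3⟩
    have k := h.cm_mem' (U := ⊥) le_rfl q (fun c hc => by rw [mem_bot.1 hc, h.one]; exact one_mem _) h1
      fun y hy => by rw [cmA _ ⟨h1, h2, h3⟩, mem_bot]; ext <;> simp [vv, mem_sE1.1 hy, h4, h5, h6]
    have e := mem_bot.1 (k (xd 1) rfl)
    rw [cmA _ hu] at e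
    have c0 : (β u).c = 0 := by simpa [vv, xd] using congrArg Co.f e
    exact ⟨hu.1, hu.2.1, hu.2.2, c0, by simpa [vv, xd] using congrArg Co.h e,
      by simpa [vv, xd, c0, two_ne] using congrArg Co.z e⟩
  have a5 : Pr β sA5 := fun u ⟨h1, h2, h3, h4⟩ => by
    have hu := p u ⟨h1, h2, h3⟩
    have e := h.cm_mem' le_rfl q w h1 (fun y hy => by
      rw [cmA _ ⟨h1, h2, h3⟩]; simp [mem_sW, vv, mem_sE1.1 hy, h4]) (xd 1) rfl
    rw [cmA _ hu] at e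
    exact ⟨hu.1, hu.2.1, hu.2.2, by simpa [vv, xd] using e.2.2.2.2.2⟩
  refine ⟨p, a5, w, fun k => ?_, (β (xb 1)).b, (β (xd 1)).b, (β (xb 1)).d, (β (xd 1)).d, (β (xc 1)).c,
    fun u hu => ?_, fun u hu => ?_⟩
  · have := ad' h (fun _ h => h.1) k
    exact ⟨this.1, this.2.1, this.2.2.2.1⟩
  · have e : (xb u.b * xd u.d)⁻¹ * u ∈ sA := by simp [mem_sA, xb, xd, mem_sE1.1 hu]
    exact ⟨lin2 (f := fun u => (β u).b) (fun u hu w hw => by simp [h.mul u hu w hw]) (fun _ => rfl) xb_add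
      (fun _ => rfl) xd_add l (fun u hu => (p u hu).2.1) e,
      lin2 (f := fun u => (β u).d) (fun u hu w hw => by simp [h.mul u hu w hw, mem_sE1.1 (q u hu)])
      (fun _ => rfl) xb_add (fun _ => rfl) xd_add l (fun u hu => (p u hu).2.2) e⟩
  · have e : (xc u.c * xc 0)⁻¹ * u ∈ sA5 := by simp [mem_sA5, xc, hu.1, hu.2.1, hu.2.2]
    simpa using lin2 (E := sE1) (U := sA5) (f := fun u => (β u).c) (fun u hu w hw => by simp [h.mul u hu w hw])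
      (fun _ => rfl) xc_add (fun _ => rfl) xc_add (fun _ h => h.1) (fun u hu => (a5 u hu).2.2.2) e

theorem a2 : A2 := fun β h => by
  have l : sA ≤ sE2 := fun _ h => h.2.1
  have p := ach _ l β h
  have q : Pr β sE2 := h.mem
  have w2 : Pr β sW2 := fun u hu => by
    rw [W2_eq hu, h.cm rfl rfl]; exact W2_cm (q _ rfl) (p _ (vvA ..))
  refine ⟨p, w2, fun u hu => ?_, fun k => ?_, ⟨(β (xa 1)).a, (β (xd 1)).a, (β (xa 1)).d, (β (xd 1)).d,
    fun u hu => ?_⟩, fun k z u hu => ?_⟩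
  · rw [Z_eq hu, h.cm rfl rfl]; exact Z_cm (q _ rfl) (w2 _ ⟨rfl, rfl, rfl, rfl, rfl, rfl⟩)
  · have := ad' h (fun _ h => h.2) k
    exact ⟨this.2.1, this.2.2.2⟩
  · have e : (xa u.a * xd u.d)⁻¹ * u ∈ sA := by simp [mem_sA, xa, xd, mem_sE2.1 hu]
    exact ⟨lin2 (f := fun u => (β u).a) (fun u hu w hw => by simp [h.mul u hu w hw]) (fun _ => rfl) xa_add
      (fun _ => rfl) xd_add l (fun u hu => (p u hu).1) e,
      lin2 (f := fun u => (β u).d) (fun u hu w hw => by simp [h.mul u hu w hw, mem_sE2.1 (q w hw)])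
      (fun _ => rfl) xa_add (fun _ => rfl) xd_add l (fun u hu => (p u hu).2.2) e⟩
  have f : ∀ x ∈ sE2, ∀ u ∈ sA, cm x (cm x u) =
      xz (2 * (u.c * x.d ^ 2 + 2 * u.e * x.a * x.d + u.g * x.a ^ 2)) := fun x hx u hu => by
    rw [cmA x hu, cmA x (vvA ..)]
    ext <;> simp [vv, xz, mem_sE2.1 hx]
    ring
  have g : ∀ a d, u.c * d ^ 2 + 2 * u.e * a * d + u.g * a ^ 2 =
      (β u).c * d ^ 2 + 2 * (β u).e * a * d + (β u).g * a ^ 2 := fun a d => by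
    have hx : uu a 0 d ∈ sE2 := rfl
    have e := (h.cm hx (l (cm_mem _ hu))).trans (congrArg _ (h.cm hx (l hu)))
    rw [f _ hx u hu, f _ (q _ hx) _ (p u hu), (k _ hx).1, (k _ hx).2] at e
    have e' := congrArg Co.z e
    rw [lin (E := sZ) (f := fun u => (β u).z) (fun u hu w hw => by
      have := (p u ⟨hu.1, hu.2.1, hu.2.2.1⟩)
      simp [h.mul u hu.2.1 w hw.2.1, this.1, this.2.2]) (fun _ => ⟨rfl, rfl, rfl, rfl, rfl, rfl, rfl, rfl⟩)
      xz_add, z] at e'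
    simpa [xz, uu, two_ne] using e'
  have c := g 0 1
  have g' := g 1 0
  have e := g 1 1
  simp at c g' e
  exact ⟨c.symm, mul_left_cancel₀ two_ne (by linear_combination c + g' - e), g'.symm⟩

theorem jobA12 : JobA12 := ⟨ach, a1, a2, ad⟩

end H39.C3A
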