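import Cfsg.Agent.H48.DP3Spec

/-! DP3-SM1: a 2-group of order at most 16 with an automorphism of order 7. -/

set_option autoImplicit false

namespace H39.DPS

open Subgroup Cfsg H98 H97 H48.DP

universe u

theorem cnt {Q : Type*} [Finite Q] {p : ℕ} (hp : p.Prime) (S : Set Q) (f : Q → Q)
    (h : ∀ a ∈ S, f a ∈ S) (e : ∀ a, f^[p] a = a) {R : Set Q} (hR : ∀ a, a ∈ R ↔ a ∈ S ∧ f a = a) :
    S.ncard ≡ R.ncard [MOD p] := by
  classical
  cases nonempty_fintype Q
  have := Fact.mk hp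
  let F : Function.End S := fun a => ⟨f a, h a a.2⟩
  have k : ∀ (n : ℕ) (a : S), ((F ^ n) a).1 = f^[n] a := fun n => by
    induction n with
    | zero => exact fun _ => rfl
    | succ n ih => exact fun a => by rw [pow_succ, Function.iterate_succ_apply]; exact ih (F a)
  have := Equiv.Perm.card_fixedPoints_modEq (f := F) (p := p) (n := 1)
    (funext fun a => Subtype.ext (by rw [pow_one, k, e]; rfl))
  rw [← Nat.card_eq_fintype_card, ← Nat.card_eq_fintype_card, Nat.card_coe_set_eq] at this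
  convert this using 1
  rw [← Nat.card_coe_set_eq]
  exact Nat.card_congr ⟨fun a => ⟨⟨a.1, ((hR a).1 a.2).1⟩, Subtype.ext ((hR a).1 a.2).2⟩,
    fun a => ⟨a.1.1, (hR _).2 ⟨a.1.2, congrArg Subtype.val a.2⟩⟩, fun _ => rfl, fun _ => rfl⟩

theorem key {Q : Type*} [Group Q] [Finite Q] (p : IsPGroup 2 Q) (c16 : Nat.card Q ≤ 16)
    (σ : MulAut Q) (s7 : σ ^ 7 = 1) (s1 : σ ≠ 1) :
    (∀ a : Q, a * a = 1) ∧ (Nat.card Q = 8 ∨ Nat.card Q = 16) := by
  classical
  have e7 : ∀ a, σ^[7] a = a := fun a => congrArg (fun f : MulAut Q => f a) s7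
  let C : Subgroup Q := σ.toMonoidHom.eqLocus (MonoidHom.id Q)
  have c1 := cnt Nat.prime_seven Set.univ σ (fun _ _ => trivial) e7 (R := C)
    fun a => ⟨fun h => ⟨trivial, h⟩, And.right⟩
  rw [Set.ncard_univ, ← Nat.card_coe_set_eq, SetLike.coe_sort_coe] at c1
  have lt : Nat.card C < Nat.card Q := (card_le_card_group C).lt_of_ne fun e =>
    s1 (MulEquiv.ext fun a => (eq_top_of_card_eq C e ▸ mem_top a : a ∈ C))
  obtain ⟨n, hn⟩ := IsPGroup.iff_card.1 p
  obtain ⟨m, hm⟩ := IsPGroup.iff_card.1 (p.to_subgroup C)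
  have n4 : n ≤ 4 := (Nat.pow_le_pow_iff_right one_lt_two).1 (hn ▸ c16)
  have mn : m < n := (Nat.pow_lt_pow_iff_right one_lt_two).1 (hn ▸ hm ▸ lt)
  have cs : (Nat.card Q = 8 ∧ Nat.card C = 1) ∨ (Nat.card Q = 16 ∧ Nat.card C = 2) := by
    rw [hn, hm] at c1 ⊢
    interval_cases n <;> interval_cases m <;> simp_all [Nat.ModEq]
  refine ⟨?_, cs.imp And.left And.left⟩
  have ii : ∀ a : Q, (fun a : Q => a⁻¹)^[2] a = a := fun a => inv_inv a
  have sq : ∀ a ∈ C, a * a = 1 := fun a ha => by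
    have := C.orderOf_dvd_natCard ha
    rw [← pow_two, ← orderOf_dvd_iff_pow_eq_one]
    rcases cs with h | h <;> rw [h.2] at this
    exacts [this.trans (one_dvd _), this]
  have E7 := cnt Nat.prime_seven {a : Q | a * a = 1} σ
    (fun a (ha : a * a = 1) => show σ a * σ a = 1 by rw [← map_mul, ha, map_one]) e7 (R := C)
    fun a => ⟨fun h => ⟨sq a h, h⟩, And.right⟩
  have E2 := cnt Nat.prime_two Set.univ (·⁻¹) (fun _ _ => trivial) ii (R := {a : Q | a * a = 1})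
    fun a => by simp [inv_eq_iff_mul_eq_one]
  rw [Set.ncard_univ] at E2
  rw [← Nat.card_coe_set_eq (C : Set Q), SetLike.coe_sort_coe] at E7
  by_contra! n
  obtain ⟨x, hx⟩ := n
  have Elt : {a : Q | a * a = 1}.ncard < Nat.card Q := Set.ncard_univ Q ▸
    Set.ncard_lt_ncard (Set.ssubset_univ_iff.2 fun e => hx (e ▸ Set.mem_univ x : x ∈ {a : Q | a * a = 1}))
  rcases cs with ⟨h, h'⟩ | ⟨h, h'⟩ <;> rw [h] at E2 Elt <;> rw [h'] at E7 <;>
    simp only [Nat.ModEq] at E2 E7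
  · omega
  have E : {a : Q | a * a = 1}.ncard = 2 := by omega
  obtain ⟨⟨c, hc⟩, c1, hC⟩ := (Nat.card_eq_two_iff' (1 : C)).1 h'
  replace c1 : c ≠ 1 := fun e => c1 (Subtype.ext e)
  have cc := sq c hc
  have inv : ∀ a : Q, a * a = 1 → a = 1 ∨ a = c := fun a ha =>
    (Set.eq_of_subset_of_ncard_le (s := {1, c}) (t := {a : Q | a * a = 1})
      (Set.insert_subset (mul_one (1 : Q)) (Set.singleton_subset_iff.2 cc))
      (by rw [E, Set.ncard_pair c1.symm])).ge ha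
  have F7 := cnt Nat.prime_seven {a : Q | a * a = c} σ
    (fun a (ha : a * a = c) => show σ a * σ a = c by rw [← map_mul, ha]; exact hc) e7 (R := ∅)
    fun a => ⟨False.elim, fun k => c1 (k.1.symm.trans (sq a k.2))⟩
  have F2 := cnt Nat.prime_two {a : Q | a * a = c} (·⁻¹)
    (fun a (ha : a * a = c) => show a⁻¹ * a⁻¹ = c by
      rw [← mul_inv_rev, ha, inv_eq_iff_mul_eq_one, cc]) ii (R := ∅)
    fun a => ⟨False.elim, fun k => c1 (k.1.symm.trans (inv_eq_iff_mul_eq_one.1 k.2))⟩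
  have sub : {a : Q | a * a = c} ⊆ {a : Q | a * a = 1}ᶜ := fun a ha k => c1 (ha.symm.trans k)
  have c14 := Set.ncard_add_ncard_compl {a : Q | a * a = 1}
  rw [h, E] at c14
  have pos : 0 < {a : Q | a * a = c}.ncard := by
    have ex : ∃ k, (x ^ 2 ^ k) * (x ^ 2 ^ k) * ((x ^ 2 ^ k) * (x ^ 2 ^ k)) = 1 := by
      obtain ⟨k, hk⟩ := p x
      exact ⟨k, by simp [hk]⟩
    have k1 := Nat.find_spec ex
    refine (Set.ncard_pos).2 ⟨x ^ 2 ^ Nat.find ex, (inv _ k1).resolve_left fun k2 => ?_⟩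
    rcases (Nat.find ex).eq_zero_or_pos with z | z
    · exact hx (by simpa [z] using k2)
    · refine Nat.find_min ex (Nat.sub_lt z one_pos) ?_
      rwa [← pow_add, ← two_mul, ← pow_succ', Nat.sub_add_cancel (m := 1) z]
  have le := Set.ncard_le_ncard sub
  simp only [Nat.ModEq, Set.ncard_empty] at F7 F2
  have all : ∀ a : Q, a ≠ 1 → a ≠ c → a * a = c := fun a a1 a2 =>
    (Set.eq_of_subset_of_ncard_le sub (by omega)).ge fun k => (inv a k).elim a1 a2
  have cen : ∀ a : Q, c * a = a * c := fun a => by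
    by_cases a1 : a = 1
    · simp [a1]
    by_cases a2 : a = c
    · rw [a2]
    rw [← all a a1 a2, mul_assoc]
  have com : ∀ a b : Q, a ≠ 1 → a ≠ c → b ≠ 1 → b ≠ c → a * b ≠ 1 → a * b ≠ c →
      b * a = a * b * c := fun a b a1 a2 b1 b2 d1 d2 => by
    apply mul_left_cancel (a := a)
    apply mul_right_cancel (b := b)
    calc a * (b * a) * b = a * b * (a * b) := by group
      _ = c * c * c := by rw [all _ d1 d2, cc, one_mul]
      _ = a * a * (b * b) * c := by rw [all a a1 a2, all b b1 b2]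
      _ = _ := by rw [mul_assoc a (a * b * c), mul_assoc (a * b), cen b]; group
  have pick : ∀ l : List Q, l.length < 16 → ∃ a, a ∉ l := fun l hl => by
    by_contra! k
    cases nonempty_fintype Q
    have := (Finset.card_le_card fun a _ => List.mem_toFinset.2 (k a) :
      Finset.univ.card ≤ l.toFinset.card).trans l.toFinset_card_le
    rw [Finset.card_univ, ← Nat.card_eq_fintype_card] at this
    omega
  obtain ⟨a, ha⟩ := pick [1, c] (by simp)
  obtain ⟨b, hb⟩ := pick [1, c, a⁻¹, a⁻¹ * c] (by simp)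
  obtain ⟨d, hd⟩ := pick [1, c, a⁻¹, a⁻¹ * c, b⁻¹, b⁻¹ * c, (a * b)⁻¹, (a * b)⁻¹ * c] (by simp)
  simp only [List.mem_cons, List.not_mem_nil, or_false, not_or, eq_inv_mul_iff_mul_eq,
    @eq_comm _ _ (_⁻¹ : Q), inv_eq_iff_mul_eq_one] at ha hb hd
  have k1 := com a b ha.1 ha.2 hb.1 hb.2.1 hb.2.2.1 hb.2.2.2
  have k2 := com a d ha.1 ha.2 hd.1 hd.2.1 hd.2.2.1 hd.2.2.2.1
  have k3 := com a (b * d) ha.1 ha.2 hd.2.2.2.2.1 hd.2.2.2.2.2.1 (mul_assoc a b d ▸ hd.2.2.2.2.2.2.1)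
    (mul_assoc a b d ▸ hd.2.2.2.2.2.2.2)
  rw [mul_assoc, k2, ← mul_assoc, ← mul_assoc, k1, mul_left_inj, mul_assoc (a * b), cen d,
    ← mul_assoc, ← mul_assoc, mul_eq_left] at k3
  exact c1 k3

theorem jobSM1 : JobSM1.{u} := by
  intro G _ _ T P R L h ch c16
  obtain ⟨g, hg⟩ := exists_prime_orderOf_dvd_card' (G := L) 7 (hp := ⟨Nat.prime_seven⟩)
    (((by decide : 7 ∣ 21).trans h.idx.symm.dvd).trans (relIndex_dvd_card T L))
  rw [← orderOf_coe] at hg
  have gN : (g : G) ∈ No (O2 L) := self_le_normalizer_pCoreOf L g.2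
  obtain ⟨a, b⟩ := key (isPGroup_pCoreOf L) c16 ((O2 L).normalizerMonoidHom ⟨g, gN⟩) (by
    rw [← map_pow, show (⟨g, gN⟩ : No (O2 L)) ^ 7 = 1 from Subtype.ext (by
      rw [← hg]; exact pow_orderOf_eq_one (g : G)), map_one]) fun e => by
    have m : (g : G) ∈ O2 L := ch ⟨g.2, fun x hx => by
      have := congrArg Subtype.val (congrArg (fun f : MulAut (O2 L) => f ⟨x, hx⟩) e)
      exact (mul_inv_eq_iff_eq_mul.1 this).symm⟩
    obtain ⟨k, hk⟩ := IsPGroup.iff_orderOf.1 (isPGroup_pCoreOf (p := 2) L) ⟨g, m⟩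
    rw [← orderOf_coe, hg] at hk
    rcases k with _ | k
    · omega
    · rw [pow_succ] at hk; omega
  exact ⟨fun x hx => congrArg Subtype.val (a ⟨x, hx⟩), b⟩

end H39.DPS
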