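import Cfsg.Agent.H11.FBSpec
import Cfsg.Agent.H2.MinNormal
import Cfsg.Agent.H92.Syl

/-! FB slot FI: the Fitting subgroup of a solvable `X` without normal `p`-subgroups, `p ≠ 3`. -/

set_option autoImplicit false

namespace H39.FBFI

open Subgroup Cfsg

universe u

theorem jobFI : H11.FB.JobFI.{u} := by
  intro G _ _ X hX hN
  have := H2.fitting_characteristic X
  refine ⟨(fittingSubgroup X).map X.subtype, map_subtype_le _, ?_, ?_, ?_⟩
  · refine IsPGroup.map ?_ _
    have : Fact (Nat.Prime 3) := ⟨Nat.prime_three⟩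
    refine IsPGroup.iff_card.2 ⟨_, Nat.eq_prime_pow_of_unique_prime_dvd Nat.card_pos.ne'
      fun {p} hp hd => ?_⟩
    by_contra c
    have := Fact.mk hp
    obtain ⟨x, hx⟩ := exists_prime_orderOf_dvd_card' p hd
    have h1 : zpowers (x : X) ≤ pCore p X := H2.le_pCore_of_le_fitting
      (IsPGroup.of_card (n := 1) (by rw [Nat.card_zpowers, orderOf_coe, hx, pow_one]))
      (zpowers_le.2 x.2)
    have h2 := hN p hp c ((pCore p X).map X.subtype) (map_subtype_le _) (by
      rintro m hm _ ⟨y, hy, rfl⟩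
      exact ⟨_, (H92.pCore_normal' p X).conj_mem y hy ⟨m, hm⟩, rfl⟩)
      ((H92.isPGroup_pCore' p X).map _)
    rw [map_eq_bot_iff_of_injective _ X.subtype_injective] at h2
    have h3 : (x : X) = 1 := by simpa [h2] using h1
    have h4 : x = 1 := Subtype.ext h3
    rw [h4, orderOf_one] at hx
    exact hp.one_lt.ne hx
  · intro g hg
    have hn : g ∈ normalizer (X : Set G) := mem_normalizer_fintype fun x hx => hg x hx
    rintro _ ⟨x, hx, rfl⟩
    exact ⟨X.normalizerMonoidHom ⟨g, hn⟩ x,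
      (characteristic_iff_map_le.1 this) _ ⟨x, hx, rfl⟩, rfl⟩
  · intro x hx h
    refine ⟨⟨x, hx⟩, H2.centralizer_fitting_le X fun y hy => Subtype.ext ?_, rfl⟩
    exact (h _ ⟨y, hy, rfl⟩).symm

end H39.FBFI
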