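import Cfsg.Agent.H39.FiC
/-! The natural module: pairs of inner involutions with the same centralizer in `J`. -/
set_option autoImplicit false
set_option linter.unusedSectionVars false
set_option maxRecDepth 100000
namespace H39.Fi
open H71 H78 H59.U6 Cfsg H98
local notation "mT" => H59.U6.mt

variable {G : Type*} [Group G] {z x y a b b' c d g j : G} {cd : G → ℕ} {ρ : G → MG}

theorem eq_one_of_odd' {K : Subgroup G} (hK : IsPGroup 2 K) (ha : a * a ∈ K)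
    (h : Odd (orderOf a)) : a = 1 := by
  obtain ⟨n, e⟩ := isPGroup_iff_forall.mp hK _ ha
  rw [← pow_two, ← pow_mul, ← pow_succ'] at e
  exact orderOf_eq_one_iff.mp (Nat.eq_one_of_dvd_coprimes
    (Nat.Coprime.pow_right _ (Nat.coprime_two_right.mpr h)) dvd_rfl (orderOf_dvd_of_pow_eq_one e))

/-- Coordinates of the natural type. -/
structure GA (z : G) (cd : G → ℕ) (ρ : G → MG) : Prop extends Fz z qa cd ρ where
  onto : ∀ g ∈ XM, ∃ c ∈ YC z, ρ c = g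

variable [Finite G]

namespace GA
variable (F : GA z cd ρ)
include F

theorem conj (g : G) :
    GA (g * z * g⁻¹) (fun a => cd (g⁻¹ * a * g)) (fun c => ρ (g⁻¹ * c * g)) where
  toFz := F.toFz.conj g
  onto := fun k hk => by
    obtain ⟨c, hc, e⟩ := F.onto k hk
    exact ⟨g * c * g⁻¹, conj_mem_YC hc, by rw [← e]; congr 1; group⟩

theorem move {g : MG} (hg : g ∈ XM) : ∃ cd' ρ', GA z cd' ρ' ∧
    (∀ a ∈ O2C z, cd' a = app g (cd a)) ∧ ∀ c, c * z = z * c → ρ' c = g * ρ c * g⁻¹ := by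
  obtain ⟨c, hc, rfl⟩ := F.onto g hg
  have := F.conj c⁻¹
  rw [conj_eq_of_cm (cm_inv (cmYz hc)), inv_inv] at this
  exact ⟨_, _, this, F.act c (cmYz hc), fun d hd => F.toFz.ρ_conj (cmYz hc) hd⟩

theorem move_type (ha : a ∈ YC z) (h2 : a * a = 1) (hx : ρ a ∈ XM) (h1 : a ∉ O2C z) :
    ∃ g ∈ XM, ∃ cd' ρ', GA z cd' ρ' ∧ (∀ a ∈ O2C z, cd' a = app g (cd a)) ∧
      (∀ c, c * z = z * c → ρ' c = g * ρ c * g⁻¹) ∧ (ρ' a = mT ∨ ρ' a = mu) := by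
  obtain ⟨g, hg, e⟩ := classesX hx (F.toFz.ρ_sq (cmYz ha) h2) fun e => h1 (F.toFz.mem_of_ρ ha e)
  obtain ⟨cd', ρ', F', e1, e2⟩ := F.move hg
  exact ⟨g, hg, cd', ρ', F', e1, e2, e2 a (cmYz ha) ▸ e⟩

omit F in
theorem β_mul {k : G} (hj : j ∈ O2C z) (hk : k * a * k⁻¹ * a⁻¹ ∈ ZC z) :
    j * k * a * (j * k)⁻¹ * a⁻¹ = k * a * k⁻¹ * a⁻¹ * (j * a * j⁻¹ * a⁻¹) := by
  have := cmZ hk hj
  calc _ = j * (k * a * k⁻¹ * a⁻¹) * (a * j⁻¹ * a⁻¹) := by group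
    _ = _ := by rw [this]; group

/-- An involution that induces a transvection: the commutators in `Z` lie in `⟨z⟩`. -/
theorem β_t (ha : a ∈ YC z) (h2 : a * a = 1) (e : ρ a = mT) (hj : j ∈ O2C z)
    (h : app mT (cd j) = cd j) : j * a * j⁻¹ * a⁻¹ = 1 ∨ j * a * j⁻¹ * a⁻¹ = z := by
  have az := cmYz ha
  obtain ⟨u, hu, w, hw, e1, e2, e3⟩ := (by decide +kernel : ∀ v < 256, app mT v = v → ∃ u < 4,
    ∃ w < 256, app mT w = w ∧ app mT (app mx w) = app mx w ∧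
      v = (u ^^^ app mT u) ^^^ (w ^^^ app mx w)) _ (F.lt j) h
  obtain ⟨n, n1, n2, n3⟩ := F.toFz.exists_comm az h2 (show u < 256 by omega)
    (by rw [e]; exact (im_t' _ (im_t u (by omega))).1)
  obtain ⟨w, w1, rfl⟩ := F.surj w hw
  obtain ⟨c, hc, ec⟩ := F.onto mx mx_mem
  have cz := cmYz hc
  have w2 := normO cz w1
  have w3 := F.act c cz w w1
  rw [ec] at w3
  obtain ⟨y, hy, rfl⟩ := F.toFz.eq_mod hj (mul_mem n1 (mul_mem w1 w2)) (by
    rw [F.mul n n1 _ (mul_mem w1 w2), F.mul w w1 _ w2, n2, w3, e, e3])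
  have hm := F.toFz.mem_of_ρ_eq (normY cz ha) ha (by
    rw [F.toFz.ρ_conj cz az, ec, e]; decide +kernel)
  have b1 := F.toFz.comm_memZ az w1 (e ▸ e1)
  have b2 := F.toFz.comm_memZ az w2 (by rw [e, w3, e2])
  have b3 := β_mul w1 b2
  have b4 := β_mul n1 (b3 ▸ mul_mem b2 b1)
  have b0 : y * a * y⁻¹ * a⁻¹ = 1 := by rw [← cmY ha hy]; group
  have n4 : n * a * n⁻¹ * a⁻¹ = 1 := by rw [← n3]; group
  rw [β_mul (mul_mem n1 (mul_mem w1 w2)) (b0 ▸ one_mem _), b0, one_mul, b4, n4, mul_one, b3]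
  have e4 : w * a * w⁻¹ * a⁻¹ = c * w * c⁻¹ * (c * a * c⁻¹ * a⁻¹) * (c * w * c⁻¹)⁻¹ *
      (c * w * c⁻¹ * a * (c * w * c⁻¹)⁻¹ * a⁻¹) * (c * a * c⁻¹ * a⁻¹)⁻¹ := by
    rw [← conj_eq_of_cm (cmY hc b1)]; group
  generalize c * w * c⁻¹ * a * (c * w * c⁻¹)⁻¹ * a⁻¹ = β at *
  have e5 := cmZ b2 hm
  have e6 := F.zsq _ b2
  rcases F.toPX.conj_or hm w2 with e7 | e7 <;> rw [e4, e7]
  · left; rw [e5, mul_inv_cancel_right, e6]
  · right
    rw [mul_assoc _ z, ← F.toPX.Z_cm b2, ← mul_assoc _ β, e5, mul_assoc β _ z, cmO hm,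
      ← mul_assoc β z, mul_inv_cancel_right, ← mul_assoc, e6, one_mul]

theorem kfix0 (ha : a ∈ YC z) (h2 : a * a = 1) (e : ρ a = mT ∨ ρ a = mu) {k : MG} (hk : k ∈ XM)
    (h : ∀ j ∈ O2C z, j * a = a * j → app k (cd j) = cd j) {v : ℕ} (hv : v < 256)
    (e1 : app (ρ a) v = v) : app k v = v := by
  have az := cmYz ha
  rcases e with e | e
  · obtain ⟨i, hi, rfl⟩ := F.surj v hv
    obtain ⟨j, hj, e2⟩ := F.surj _ (app_lt mΩ hv)
    rw [e] at e1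
    have e3 : app mT (cd j) = cd j := by rw [e2, Ω_fix mt_mem e1]
    have key : ∀ j ∈ O2C z, j * a * j⁻¹ * a⁻¹ = 1 → app k (cd j) = cd j := fun j hj e =>
      h j hj (mul_inv_eq_iff_eq_mul.mp (mul_inv_eq_one.mp e))
    refine fix_of_Ω hk hv ?_
    rcases F.β_t ha h2 e hi e1 with e4 | e4
    · exact Or.inl (key i hi e4)
    rcases F.β_t ha h2 e hj e3 with e5 | e5
    · exact Or.inr (Or.inl (e2 ▸ key j hj e5))
    refine Or.inr (Or.inr ?_)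
    rw [← e2, ← F.mul i hi j hj]
    exact key _ (mul_mem hi hj) (by rw [β_mul hi (e5 ▸ z_memZ), e4, e5, F.toPX.z_sq])
  · obtain ⟨u, hu, rfl⟩ := free_fix mu (by simp) v hv (e ▸ e1)
    obtain ⟨j, j1, j2, j3⟩ := F.toFz.exists_comm az h2 hu (e ▸ free_sing mu (by simp) u hu)
    rw [e] at j2
    exact j2 ▸ h j j1 j3.symm

/-- The centralizer in `J` of an inner involution spans its fixed space. -/
theorem kfix (ha : a ∈ YC z) (h2 : a * a = 1) (hx : ρ a ∈ XM) (h1 : a ∉ O2C z) {k : MG}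
    (hk : k ∈ XM) (h : ∀ j ∈ O2C z, j * a = a * j → app k (cd j) = cd j) {v : ℕ} (hv : v < 256)
    (e1 : app (ρ a) v = v) : app k v = v := by
  obtain ⟨g, hg, cd', ρ', F', e2, e3, e4⟩ := F.move_type ha h2 hx h1
  have := F'.kfix0 ha h2 e4 (mul_mem (mul_mem hg hk) (inv_mem hg)) (fun j hj e => by
    rw [e2 j hj, app_mul, app_mul, app_inv_app _ (F.lt j), h j hj e]) (app_lt g hv) (by
    rw [e3 a (cmYz ha), app_mul, app_mul, app_inv_app _ hv, e1])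
  rw [app_mul, app_mul, app_inv_app _ hv] at this
  exact app_inj g (app_lt _ hv) hv this

theorem pair (hb : b ∈ YC z) (hb' : b' ∈ YC z) (h2 : b * b = 1) (h2' : b' * b' = 1)
    (hx : ρ b ∈ XM) (hx' : ρ b' ∈ XM) (n1 : b ∉ O2C z) (n2 : b' ∉ O2C z) (n3 : b * b' ∉ O2C z)
    (hK : ∀ j ∈ O2C z, (j * b = b * j ↔ j * b' = b' * j))
    (odd : ∀ g, g * b' = b' * g → Odd (orderOf (b * b' * (g * (b * b') * g⁻¹)))) : False := by
  have bz := cmYz hb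
  have bz' := cmYz hb'
  obtain ⟨g, hg, cd, ρ, F, -, e3, e4⟩ := F.move_type hb' h2' hx' n2
  replace hx : ρ b ∈ XM := e3 b bz ▸ mul_mem (mul_mem hg hx) (inv_mem hg)
  have h1 : ∀ v < 256, app (ρ b') v = v → app (ρ b) v = v := fun v hv =>
    F.kfix0 hb' h2' e4 hx (fun j hj e => F.toFz.fix_of_comm bz hj ((hK j hj).mpr e).symm) hv
  have n4 : ρ b ≠ 1 := fun e => n1 (F.toFz.mem_of_ρ hb e)
  have n5 : ρ b ≠ ρ b' := fun e => n3 (F.toFz.mem_of_ρ (mul_mem hb hb') (by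
    rw [F.toFz.ρ_mul bz bz', e, F.toFz.ρ_sq bz' h2']))
  have hW := mem_LW (XM_le_WM hx) (stab5 (XM_le_WM hx) (h1 5 (by omega) (by
    rcases e4 with e | e <;> rw [e] <;> decide +kernel)))
  rcases e4 with e | e <;> rw [e] at h1 n5
  · refine (stab_t _ hW fun v hv => ?_).elim n4 n5
    have := (by decide +kernel : ∀ v ∈ [5, 10, 16, 32, 64, 128], v < 256 ∧ app mT v = v) v hv
    exact h1 v this.1 this.2
  have hE := stab_u _ hW fun v hv => by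
    have := (by decide +kernel : ∀ v ∈ [10, 80, 160], v < 256 ∧ app mu v = v) v hv
    exact h1 v this.1 this.2
  obtain ⟨c, hc, ec⟩ := F.onto mx mx_mem
  have cz := cmYz hc
  have hm := F.toFz.mem_of_ρ_eq (normY cz hb') hb' (by
    rw [F.toFz.ρ_conj cz bz', ec, e]; decide +kernel)
  have i2 := inv_eq_of_mul_self h2'
  obtain ⟨u, hu, e5⟩ := free_fix mu (by simp) _ (F.lt (c * b' * c⁻¹ * b'⁻¹)) (by
    rw [← e, ← F.act _ bz' _ hm, ← F.toFz.cd_inv hm]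
    congr 1
    simp only [mul_inv_rev, inv_inv, i2, mul_assoc, h2', mul_one])
  obtain ⟨i, hi, rfl⟩ := F.surj u hu
  obtain ⟨y, hy, e6⟩ := F.toFz.eq_mod hm (commO bz' hi) (by rw [F.toFz.cd_comm bz' hi, e, e5])
  have hc' := mul_mem (inv_mem (O_le_Y hi)) hc
  have e7 : i⁻¹ * c * b' * (i⁻¹ * c)⁻¹ = b' * y := by
    calc _ = i⁻¹ * (c * b' * c⁻¹ * b'⁻¹) * b' * i := by group
      _ = b' * (i⁻¹ * (b'⁻¹ * y * b') * i) := by rw [e6]; group
      _ = _ := by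
        rw [mul_assoc b'⁻¹, ← cmY hb' hy, inv_mul_cancel_left, mul_assoc i⁻¹, ← cmZ hy hi,
          inv_mul_cancel_left]
  have ec' : ρ (i⁻¹ * c) = mx := by
    rw [F.toFz.ρ_mul (cmO (inv_mem hi)) cz, F.toFz.ρ_of_mem (inv_mem hi), one_mul, ec]
  generalize i⁻¹ * c = s at hc' e7 ec'
  have sz := cmYz hc'
  have hτ := mul_mem (mul_mem hb hb') (normY (cm_mul sz sz) (mul_mem hb hb'))
  have eτ := F.toFz.ρ_mul (cm_mul bz bz') (cm_conj (cm_mul sz sz) (cm_mul bz bz'))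
  rw [F.toFz.ρ_conj (cm_mul sz sz) (cm_mul bz bz'), F.toFz.ρ_mul sz sz, F.toFz.ρ_mul bz bz', ec',
    e] at eτ
  obtain ⟨f1, f2⟩ := (by decide +kernel : ∀ a ∈ H59.U6.LE,
    a * mu * (mx * mx * (a * mu) * (mx * mx)⁻¹) * (a * mu * (mx * mx * (a * mu) * (mx * mx)⁻¹)) = 1
      ∧ (a * mu * (mx * mx * (a * mu) * (mx * mx)⁻¹) = 1 → a = 1 ∨ a = mu ∨
        ∃ v ∈ [1, 16], app a v = v ∧ app mu v ≠ v)) _ hE
  have e8 := eq_one_of_odd' isP_O (F.toFz.mem_of_ρ (mul_mem hτ hτ) (by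
    rw [F.toFz.ρ_mul (cmYz hτ) (cmYz hτ), eτ, f1])) (odd (s * s) (mul_inv_eq_iff_eq_mul.mp (by
      rw [show s * s * b' * (s * s)⁻¹ = s * (s * b' * s⁻¹) * s⁻¹ by group, e7, ← conj_mul, e7,
        conj_eq_of_cm (cmY hc' hy), mul_assoc, F.zsq y hy, mul_one])))
  rw [e8, F.toFz.ρ_one] at eτ
  obtain ⟨v, hv, f3, f4⟩ := ((f2 eτ.symm).resolve_left n4).resolve_left n5
  exact f4 (F.kfix hb h2 hx n1 (k := mu) (mul_mem mt_mem ms_mem) (fun j hj e1 =>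
    e ▸ F.toFz.fix_of_comm bz' hj ((hK j hj).mp e1).symm)
    ((by decide : ∀ v ∈ [1, 16], v < 256) v hv) f3)

end GA
end H39.Fi
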