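import Cfsg.Agent.H39.FiD
/-! The centre of order eight: fusion. -/
set_option autoImplicit false
set_option linter.unusedSectionVars false
set_option maxRecDepth 100000
namespace H39.Fi
open H71 H78 H59.U6 Cfsg H98

variable {G : Type*} [Group G] {z x y b c g h j k u v w : G} {cd : G → ℕ} {ρ : G → MG}
  {V : Subgroup G}

theorem exists_fix4 [Finite G] {T : Subgroup G} (hT : IsPGroup 2 T) (hV : Nat.card V = 4)
    (hn : ∀ t ∈ T, ∀ v ∈ V, t * v * t⁻¹ ∈ V) : ∃ v ∈ V, v ≠ 1 ∧ ∀ t ∈ T, t * v = v * t := by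
  let _ : MulAction T V :=
    { smul := fun t v => ⟨t * v * (t : G)⁻¹, hn t t.2 v v.2⟩
      one_smul := fun s => Subtype.ext (by show ((1 : T) : G) * s * ((1 : T) : G)⁻¹ = s; simp)
      mul_smul := fun u v s => Subtype.ext (by
        show ((u * v : T) : G) * s * ((u * v : T) : G)⁻¹ = u * (v * s * (v : G)⁻¹) * (u : G)⁻¹
        rw [Subgroup.coe_mul]; group) }
  obtain ⟨s, hs, h1⟩ := hT.exists_fixed_point_of_prime_dvd_card_of_fixed_point V
    (by rw [hV]; norm_num) (a := 1) fun t => Subtype.ext (by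
      show (t : G) * 1 * (t : G)⁻¹ = 1; simp)
  exact ⟨s, s.2, fun e => h1 (Subtype.ext e).symm, fun t ht =>
    mul_inv_eq_iff_eq_mul.mp (congrArg Subtype.val (hs ⟨t, ht⟩))⟩

theorem cj_ne (h : u ≠ 1) : g⁻¹ * u * g ≠ 1 := by simpa using (conj_eq_one_iff (a := g⁻¹)).not.mpr h

theorem four_cases [Finite G] (hV : Nat.card V = 4) (sq : ∀ v ∈ V, v * v = 1) (hv : v ∈ V)
    (hw : w ∈ V) (v1 : v ≠ 1) (w1 : w ≠ 1) (vw : w ≠ v) (hu : u ∈ V) :
    u = 1 ∨ u = v ∨ u = w ∨ u = w * v := by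
  by_contra hn
  push Not at hn
  have := H59.length_le_card_subgroup (K := V) (L := [1, v, w, w * v, u]) (by
    have : w * v ≠ 1 := fun e => vw (by rw [eq_inv_of_mul_eq_one_left e, inv_eq_of_mul_self (sq v hv)])
    simp [v1.symm, w1.symm, vw.symm, this.symm, hn.1.symm, hn.2.1.symm, hn.2.2.1.symm,
      hn.2.2.2.symm, v1, w1]) (by simp [hv, hw, hu, mul_mem hw hv])
  simp [hV] at this

theorem exists_third [Finite G] (hV : Nat.card V = 4) (v : G) : ∃ w ∈ V, w ≠ 1 ∧ w ≠ v := by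
  classical
  by_contra hn
  push Not at hn
  have := Nat.card_le_card_of_injective (fun w : V => decide ((w : G) = 1)) fun a b e => by
    by_cases h : (a : G) = 1
    · exact Subtype.ext (h.trans (by simpa [h] using e : (b : G) = 1).symm)
    · exact Subtype.ext ((hn a a.2 h).trans (hn b b.2 (by simpa [h] using e)).symm)
  simp [hV] at this

/-- The local structure with a centre `⟨z⟩ × V` of order eight. -/
structure W8 (z : G) (V : Subgroup G) : Prop where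
  nf : NF z
  VZ : V ≤ ZC z
  zV : z ∉ V
  Zd : ∀ y ∈ ZC z, y ∈ V ∨ y * z ∈ V
  Vn : ∀ h, h * z = z * h → ∀ w ∈ V, h * w * h⁻¹ ∈ V
  card : Nat.card V = 4
  trans : ∀ v ∈ V, v ≠ 1 → ∀ w ∈ V, w ≠ 1 → ∃ h, h * z = z * h ∧ h * v * h⁻¹ = w
  fr : ∀ v ∈ V, v ≠ 1 → ∃ cd ρ, GA z cd ρ ∧ (∀ c ∈ YC z, ρ c ∈ XM) ∧
    (∀ c, c * z = z * c → c * v = v * c → ρ c ∈ WM) ∧
    ∃ t, t * z = z * t ∧ t * v = v * t ∧ ρ t = mσ
  faith : ∀ h, h * z = z * h → (∀ a ∈ O2C z, h * a * h⁻¹ * a⁻¹ ∈ ZC z) → h ∈ O2C z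

variable [Finite G]

namespace W8
variable (W : W8 z V)
include W

theorem ga : ∃ cd ρ, GA z cd ρ ∧ ∀ c ∈ YC z, ρ c ∈ XM := by
  obtain ⟨v, hv, v1, -⟩ := exists_third W.card 1
  obtain ⟨cd, ρ, F, h, -⟩ := W.fr v hv v1
  exact ⟨cd, ρ, F, h⟩

theorem px : PX z := by
  obtain ⟨_, _, F, -⟩ := W.ga
  exact F.toPX

theorem sq (hv : v ∈ V) : v * v = 1 := W.px.zsq v (W.VZ hv)

theorem cz (hv : v ∈ V) : v * z = z * v := W.px.Z_cm (W.VZ hv)

theorem cm (hv : v ∈ V) (hw : w ∈ V) : v * w = w * v := cmZ (W.VZ hw) (W.px.le (W.VZ hv))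

theorem cases (hv : v ∈ V) (hw : w ∈ V) (v1 : v ≠ 1) (w1 : w ≠ 1) (vw : w ≠ v) (hu : u ∈ V) :
    u = 1 ∨ u = v ∨ u = w ∨ u = w * v := four_cases W.card (fun _ => W.sq) hv hw v1 w1 vw hu

theorem cV (hv : v ∈ V) (hw : w ∈ V) (v1 : v ≠ 1) (w1 : w ≠ 1) (vw : w ≠ v)
    (h1 : h * v = v * h) (h2 : h * w = w * h) (hu : u ∈ V) : h * u = u * h := by
  rcases W.cases hv hw v1 w1 vw hu with rfl | rfl | rfl | rfl
  exacts [by simp, h1, h2, (cm_mul h2.symm h1.symm).symm]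

theorem memY (hz : h * z = z * h) (hV : ∀ u ∈ V, h * u = u * h) : h ∈ YC z := fun y hy => by
  rcases W.Zd y hy with e | e
  · exact (hV y e).symm
  · rw [← W.px.mul_z_z y]; exact cm_mul (hV _ e).symm hz.symm

theorem move (hv : v ∈ V) (hw : w ∈ V) (v1 : v ≠ 1) (w1 : w ≠ 1) (vw : w ≠ v)
    (h1 : h * v = v * h) (h2 : h * w * h⁻¹ ∈ V) : h * w = w * h ∨ h * w * h⁻¹ = w * v := by
  rcases W.cases hv hw v1 w1 vw h2 with e | e | e | e
  · exact absurd (by simpa using e) w1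
  · rw [← conj_eq_of_cm h1] at e
    exact absurd (by simpa using e) vw
  · exact Or.inl (mul_inv_eq_iff_eq_mul.mp e)
  · exact Or.inr e

theorem conjV (hv : v ∈ V) (hg : g * v * g⁻¹ ∈ ZC z) : g * v * g⁻¹ ∈ V := by
  obtain ⟨k, hk, e⟩ := W.nf.burn (W.VZ hv) hg
  exact e ▸ W.Vn k hk v hv

variable (hd : ∀ v ∈ V, v ≠ 1 → Iso z (v * z))
  (hw : ∀ v ∈ V, v ≠ 1 → ∀ g, g * v = v * g → g * z * g⁻¹ ∈ O2C z → g * z * g⁻¹ = z)
include hd hw

/-- `z` is weakly closed in `J`. -/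
theorem wc (hx : g * z * g⁻¹ ∈ O2C z) : g * z * g⁻¹ = z := by
  obtain ⟨cd, ρ, F, -⟩ := W.ga
  have hi : IsConj z (g * z * g⁻¹) := isConj_iff.mpr ⟨g, rfl⟩
  obtain ⟨b, hb, b1, e⟩ := exists_fix4 (V := cj g V)
    (T := O2C z ⊓ Subgroup.centralizer {g * z * g⁻¹}) (isP_O.to_le inf_le_left)
    (by rw [Subgroup.card_map_of_injective (MulAut.conj g).injective, W.card]) fun t ht v hv => by
      have := W.Vn _ (comm_conj' (Subgroup.mem_centralizer_singleton_iff.mp ht.2)) _ (mem_cj.mp hv)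
      exact mem_cj.mpr (by convert this using 1; group)
  have e' : ∀ j ∈ O2C z, j * (g * z * g⁻¹) = g * z * g⁻¹ * j → j * b = b * j := fun j hj h =>
    e j ⟨hj, Subgroup.mem_centralizer_singleton_iff.mpr h⟩
  have hY : b ∈ YC z := fun y hy => e' y (F.le hy) (cmZ hy hx).symm
  have hJ := F.toFz.mem_of_ρ hY (F.toFz.ρ_of_hyper (cmYz hY) (F.lt _)
    ((F.toFz.sq_iff hx).mp (F.toPX.conj g).z_sq) fun v hv h => by
      obtain ⟨j, hj, rfl⟩ := F.surj v hv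
      exact F.toFz.fix_of_comm (cmYz hY) hj (e' j hj ((F.toFz.comm_iff hj hx).mpr h)).symm)
  have hu := mem_cj.mp hb
  have e0 : g * (g⁻¹ * b * g) * g⁻¹ = b := by group
  have hbx : b ∈ ZC (g * z * g⁻¹) := mem_ZC_conj.mpr (W.VZ hu)
  rcases F.toFz.perp_perp (F.lt _) (F.lt b) (fun v hv h => by
    obtain ⟨j, hj, rfl⟩ := F.surj v hv
    exact (F.toFz.comm_iff hj hJ).mp (e' j hj ((F.toFz.comm_iff hj hx).mpr h))) with e1 | e1
  · have h1 := (F.ker b hJ).mp e1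
    obtain ⟨k, hk, e2⟩ := W.nf.conjC h1 hi hbx
    rw [← e2] at hx ⊢
    exact hw b (e0 ▸ W.conjV hu (e0.symm ▸ h1)) b1 k hk hx
  · have h1 := (F.ker _ (mul_mem hJ hx)).mp (by rw [F.mul b hJ _ hx, e1, Nat.xor_self])
    have e2 : b * (g * z * g⁻¹) = g * (g⁻¹ * b * g * z) * g⁻¹ := by group
    obtain ⟨k, hk, e3⟩ := W.nf.burn (mul_mem (W.VZ hu) z_memZ) (e2 ▸ h1)
    rw [← e2, ← conj_mul, conj_eq_of_cm hk] at e3
    exact Iso.eq W.nf (e3 ▸ hd _ (W.Vn k hk _ hu) (by simpa using cj_ne b1)) h1 hi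
      (mul_mem hbx z_memZ) (cmO hx)

theorem pair8 (xz : g * z * g⁻¹ * z = z * (g * z * g⁻¹)) (ne : g * z * g⁻¹ ≠ z) (hu : u ∈ V)
    (u1 : u ≠ 1) (bz : g * u * g⁻¹ * z = z * (g * u * g⁻¹))
    (hb : ∀ j ∈ O2C z, j * (g * u * g⁻¹) = g * u * g⁻¹ * j → j * (g * z * g⁻¹) = g * z * g⁻¹ * j)
    (ti : ∀ w ∈ V, g⁻¹ * w * g ∈ V → w = 1) : False := by
  obtain ⟨cd, ρ, F, hX⟩ := W.ga
  have i1 := (hd u hu u1).conj g
  rw [← conj_mul] at i1
  have hbZ := conj_mem_ZC (g := g) (W.VZ hu)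
  have P := F.toPX.conj g
  have hbV : ∀ w, w * (g * z * g⁻¹) = g * z * g⁻¹ * w → g⁻¹ * (w * (g * u * g⁻¹) * w⁻¹) * g ∈ V :=
    fun w h => by convert W.Vn _ (comm_conj' h) u hu using 1; group
  have hb0 : g⁻¹ * (g * u * g⁻¹)⁻¹ * g ∈ V := by convert inv_mem hu using 1; group
  have n3 : g * z * g⁻¹ ∉ O2C z := fun e => ne (W.wc hd hw e)
  generalize g * z * g⁻¹ = x at *
  generalize g * u * g⁻¹ = b at *
  have x2 := P.z_sq
  have b2 := P.zsq b hbZ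
  have bx := P.Z_cm hbZ
  have xb : x * (b * x) = b * x * x := by rw [← mul_assoc, ← bx]
  have bxz := cm_mul bz xz
  have b3 : b * (b * x) = x := by rw [← mul_assoc, b2, one_mul]
  have hb' : ∀ j ∈ O2C z, j * (b * x) = b * x * j → j * x = x * j := fun j hj =>
    i1.cJ x2 xb xz hj
  obtain ⟨v, hv, v1, e⟩ := exists_fix4 (T := O2C x ⊓ Subgroup.centralizer {z})
    (isP_O.to_le inf_le_left) W.card fun t ht =>
      W.Vn t (Subgroup.mem_centralizer_singleton_iff.mp ht.2)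
  have bv := e b ⟨P.le hbZ, Subgroup.mem_centralizer_singleton_iff.mpr bz⟩
  have xv := e x ⟨P.z_mem, Subgroup.mem_centralizer_singleton_iff.mpr xz⟩
  obtain ⟨w, hw, w1, vw⟩ := exists_third W.card v
  have wJ := F.le (W.VZ hw)
  have xw : w * x = x * w := by
    rcases W.move hv hw v1 w1 vw bv (W.Vn b bz w hw) with e1 | e1
    · exact hb w wJ e1.symm
    rcases W.move hv hw v1 w1 vw (cm_mul bv xv) (W.Vn _ bxz w hw) with e2 | e2
    · exact hb' w wJ e2.symm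
    rw [← e1, show b * x * w * (b * x)⁻¹ = b * (x * w * x⁻¹) * b⁻¹ by group] at e2
    exact (mul_inv_eq_iff_eq_mul.mp (by simpa using e2)).symm
  have hxY := W.memY xz fun _ => W.cV hv hw v1 w1 vw xv xw.symm
  have hbY := W.memY bz fun _ => W.cV hv hw v1 w1 vw bv
    ((W.move hv hw v1 w1 vw bv (W.Vn b bz w hw)).resolve_right fun e1 => v1 (ti v hv (by
      have := mul_mem (hbV _ (cm_inv xw)) hb0
      rw [← inv_mul_cancel_left w v, ← e1]
      convert this using 1; group)))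
  have key : ∀ c ∈ O2C z, c * c = 1 → (∀ j ∈ O2C z, j * c = c * j → j * x = x * j) → False :=
    fun c hc c2 h => n3 (F.toFz.mem_of_ρ hxY (F.toFz.ρ_of_hyper xz (F.lt c)
      ((F.toFz.sq_iff hc).mp c2) fun v hv e => by
        obtain ⟨j, hj, rfl⟩ := F.surj v hv
        exact F.toFz.fix_of_comm xz hj (h j hj ((F.toFz.comm_iff hj hc).mpr e)).symm))
  have b4 := P.zsq _ (mul_mem hbZ z_memZ)
  refine F.pair hbY (mul_mem hbY hxY) b2 b4 (hX _ hbY) (hX _ (mul_mem hbY hxY))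
    (fun e => key b e b2 hb) (fun e => key _ e b4 hb') (b3.symm ▸ n3) (fun j hj =>
      ⟨fun e => (cm_mul e.symm (hb j hj e).symm).symm, fun e => ?_⟩)
    fun k hk => b3.symm ▸ i1.odd x2 xb hk
  have e1 := hb' j hj e
  rw [mul_assoc, ← e1, ← mul_assoc, ← mul_assoc] at e
  exact mul_right_cancel e

omit hw in
theorem isolated (hv : ∀ v ∈ V, v ≠ 1 → Iso z v) : Iso z 1 := fun g _ xz => by
  by_contra ne
  have hi : IsConj z (g * z * g⁻¹) := isConj_iff.mpr ⟨g, rfl⟩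
  obtain ⟨b, hb, b1, e⟩ := exists_fix4 (V := cj g V)
    (T := O2C z ⊓ Subgroup.centralizer {g * z * g⁻¹}) (isP_O.to_le inf_le_left)
    (by rw [Subgroup.card_map_of_injective (MulAut.conj g).injective, W.card]) fun t ht v hv => by
      have := W.Vn _ (comm_conj' (Subgroup.mem_centralizer_singleton_iff.mp ht.2)) _ (mem_cj.mp hv)
      exact mem_cj.mpr (by convert this using 1; group)
  obtain ⟨u, hu, rfl⟩ := hb
  have u1 : u ≠ 1 := fun e => b1 (by simp [e])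
  exact W.pair8 hd (fun v h1 h2 k hk e => hv v h1 h2 k hk (cmO e)) xz ne hu u1
    (e z ⟨W.px.z_mem, Subgroup.mem_centralizer_singleton_iff.mpr xz.symm⟩).symm
    (fun j hj => ((hv u hu u1).conj g).cJ (W.px.conj g).z_sq
      (comm_conj'' (W.cz hu).symm) xz hj) fun w hw e => by_contra fun w1 =>
    ne (Iso.eq W.nf (hv w hw w1) (W.VZ hw) hi (mem_ZC_conj.mpr (W.VZ e)) xz)

variable (hB : ∀ v ∈ V, v ≠ 1 → ∀ g, g * v = v * g → g ∈ Subgroup.normalizer (V : Set G))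
include hB

omit hd hw hB in
theorem H_le (hz : h * z = z * h) : h ∈ Subgroup.normalizer (V : Set G) :=
  mem_normalizer_of_conj_mem (W.Vn h hz)

omit hd hw in
theorem ti (h1 : w ∈ V) (w1 : w ≠ 1) (e : g⁻¹ * w * g ∈ V) :
    g ∈ Subgroup.normalizer (V : Set G) := by
  obtain ⟨h, hz, e1⟩ := W.trans w h1 w1 _ e (cj_ne w1)
  have := hB w h1 w1 (g * h) (mul_inv_eq_iff_eq_mul.mp (by
    rw [show g * h * w * (g * h)⁻¹ = g * (h * w * h⁻¹) * g⁻¹ by group, e1]; group))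
  exact (mul_mem_cancel_right (W.H_le hz)).mp this

theorem memV_of_H (hu : u ∈ V) (u1 : u ≠ 1) (bz : g * u * g⁻¹ * z = z * (g * u * g⁻¹)) :
    g * u * g⁻¹ ∈ V := by
  by_contra hn
  obtain ⟨k, hk, e⟩ := W.nf.fix (X := Subgroup.centralizer {u})
    (T := cj g⁻¹ (O2C z ⊓ Subgroup.centralizer {g * u * g⁻¹}))
    (fun a ha => Subgroup.mem_centralizer_singleton_iff.mpr (cmZ (W.VZ hu) ha))
    ((isP_O.to_le inf_le_left).map _) (by
      rintro _ ⟨a, ha, rfl⟩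
      exact Subgroup.mem_centralizer_singleton_iff.mpr (by
        simpa using comm_conj' (Subgroup.mem_centralizer_singleton_iff.mp ha.2)))
  have e1 : g * u * g⁻¹ = g * k * u * (g * k)⁻¹ := by
    conv_lhs => rw [← conj_eq_of_cm (Subgroup.mem_centralizer_singleton_iff.mp hk)]
    group
  have hb : ∀ j ∈ O2C z, j * (g * u * g⁻¹) = g * u * g⁻¹ * j →
      j * (g * k * z * (g * k)⁻¹) = g * k * z * (g * k)⁻¹ * j := fun j hj h => by
    have := comm_conj'' (g := g) (e _ (conj_mem_cj (g := g⁻¹)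
      ⟨hj, Subgroup.mem_centralizer_singleton_iff.mpr h⟩))
    convert this using 1 <;> group
  have xz := hb z W.px.z_mem bz.symm
  rw [e1] at hb bz hn
  exact W.pair8 hd hw xz.symm (fun e => hn (W.Vn _ (mul_inv_eq_iff_eq_mul.mp e) u hu)) hu u1 bz hb
    fun w h1 e => by_contra fun w1 => hn (H78.conj_mem_of_mem_normalizer (W.ti hB h1 w1 e) hu)

theorem memV_of_N (hu : u ∈ V) (u1 : u ≠ 1) (hb : g * u * g⁻¹ ∈ Subgroup.normalizer (V : Set G)) :
    g * u * g⁻¹ ∈ V := by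
  obtain ⟨k, hk, e⟩ := W.nf.fix (X := Subgroup.normalizer (V : Set G))
    (T := Subgroup.zpowers (g * u * g⁻¹)) (fun a ha => W.H_le (cmO ha))
    (isPGroup_zpowers (k := 1) (by rw [pow_one, pow_two, conj_mul, W.sq hu]; simp))
    (Subgroup.zpowers_le.mpr hb)
  have := W.memV_of_H hd hw hB (g := k⁻¹ * g) hu u1 (by
    convert comm_conj' (e _ (Subgroup.mem_zpowers _)) using 2 <;> group)
  convert H78.conj_mem_of_mem_normalizer hk this using 1; group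

theorem normal : V.Normal := by
  refine Subgroup.normalizer_eq_top_iff.mp (eq_top_iff.mpr fun g _ => by_contra fun hn => ?_)
  obtain ⟨u, hu, u1, -⟩ := exists_third W.card 1
  have s2 : g * u * g⁻¹ * (g * u * g⁻¹) = 1 := by rw [conj_mul, W.sq hu]; simp
  have su : IsConj u (g * u * g⁻¹) := isConj_iff.mpr ⟨g, rfl⟩
  have key : ∀ j, j ≠ 1 → j * (g * u * g⁻¹) = g * u * g⁻¹ * j → IsConj u (j * (g * u * g⁻¹)) →
      j ∉ Subgroup.normalizer (V : Set G) := fun j j1 h1 h2 h3 => by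
    obtain ⟨k, e⟩ := isConj_iff.mp h2
    have e1 : g⁻¹ * k * u * (g⁻¹ * k)⁻¹ = g⁻¹ * j * g * u := by
      rw [show g⁻¹ * k * u * (g⁻¹ * k)⁻¹ = g⁻¹ * (k * u * k⁻¹) * g by group, e]; group
    have h4 := W.memV_of_N hd hw hB (g := g⁻¹ * k) hu u1 (e1 ▸ hB u hu u1 _
      (cm_mul (comm_conj' h1) rfl))
    rw [e1, mul_mem_cancel_right hu] at h4
    have e2 : g * (g⁻¹ * j * g) * g⁻¹ = j := by group
    exact hn (W.ti hB (e2 ▸ W.memV_of_N hd hw hB h4 (cj_ne j1) (e2.symm ▸ h3)) j1 h4)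
  have key2 : ∀ {K : Subgroup G}, g * u * g⁻¹ ∈ K → ∀ w ∈ V, w ≠ 1 → w ∈ K →
      ∃ k ∈ K, k * w * k⁻¹ = g * u * g⁻¹ := fun hK w h1 w1 h2 =>
    (dih s2 (W.sq h1) hK h2).resolve_right fun ⟨j, j1, _, j3, j4, j5⟩ => by
      obtain ⟨h, -, e⟩ := W.trans u hu u1 w h1 w1
      exact key j j1 j3 (j5.elim su.trans fun e1 => (isConj_iff.mpr ⟨h, e⟩).trans e1.1)
        (hB w h1 w1 j j4)
  rcases dih s2 W.px.z_sq (Subgroup.mem_top _) (Subgroup.mem_top _) with ⟨k, -, e⟩ |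
    ⟨j, j1, j2, j3, j4, j5 | ⟨-, j5⟩⟩
  · exact W.zV (W.nf.eq ((isConj_iff.mpr ⟨k, e⟩).trans su.symm) (W.VZ hu) ▸ hu)
  · exact key j j1 j3 (su.trans j5) (W.H_le j4)
  obtain ⟨k, e⟩ := isConj_iff.mp (su.trans j5)
  have h1 : j * z ∈ V := e ▸ W.memV_of_H hd hw hB hu u1 (e.symm ▸ cm_mul j4 rfl)
  have w1 : j * z ≠ 1 := e ▸ by simpa using u1
  obtain ⟨w, h2, w2, w3⟩ := exists_third W.card (j * z)
  have jZ : j ∈ ZC z := (mul_mem_cancel_right z_memZ).mp (W.VZ h1)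
  have m : ∀ w ∈ V, w ∈ Subgroup.centralizer ({j} : Set G) := fun w hw =>
    Subgroup.mem_centralizer_singleton_iff.mpr (cmZ jZ (W.px.le (W.VZ hw)))
  have ms := Subgroup.mem_centralizer_singleton_iff.mpr j3.symm
  obtain ⟨a, ha, e1⟩ := key2 ms _ h1 w1 (m _ h1)
  obtain ⟨b, hb, e2⟩ := key2 ms _ h2 w2 (m _ h2)
  have e3 : b⁻¹ * a * z * (b⁻¹ * a)⁻¹ = j * w := by
    have e4 := conj_eq_of_cm (Subgroup.mem_centralizer_singleton_iff.mp (mul_mem (inv_mem hb) ha))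
    have e5 : b⁻¹ * a * (j * z) * (b⁻¹ * a)⁻¹ = w := by
      rw [show b⁻¹ * a * (j * z) * (b⁻¹ * a)⁻¹ = b⁻¹ * (a * (j * z) * a⁻¹) * b by group, e1, ← e2]
      group
    rw [← e5, ← conj_mul, e4, ← mul_assoc, j2, one_mul]
  have := W.nf _ (e3 ▸ mul_mem jZ (W.VZ h2))
  rw [e3] at this
  exact w3 (by rw [← this, ← mul_assoc, j2, one_mul])

end W8
end H39.Fi
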