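import Cfsg.Agent.H51.KSSpec
import Cfsg.Agent.H51.KLGeo
import Cfsg.Agent.H38.KLIdx

/-! KS-PT (`blueprints/KS.md`): the symplectic group has rank three on points. -/

set_option autoImplicit false

namespace H39.KS

open Module Submodule H53.CK H51.KL H51.KS H54 H26.MS

universe u v

theorem jobPt : JobPt.{u, v} := by
  intro F _ _ V _ _ _ B S hn x hx
  have := finGL F V
  have sx := mem_span_singleton_self (R := F) x
  have le : Pt (Isom B) x ≤ Isom B := stabSub_le _ _
  have cz : Cz B x ≤ Pt (Isom B) x := fun k hk =>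
    mem_Pt.2 ⟨hk.1, (show k x = x from hk.2).symm ▸ sx⟩
  constructor
  · obtain ⟨y, y1, y2⟩ : ∃ y, B x y = 0 ∧ y ∉ F ∙ x := by
      by_contra! k
      have h1 := finrank_mono (show LinearMap.ker (B x) ≤ F ∙ x from k)
      have h2 := (B x).finrank_range_add_finrank_ker
      have h3 := finrank_le (LinearMap.range (B x))
      rw [finrank_span_singleton hx] at h1
      rw [finrank_self] at h3
      omega
    obtain ⟨w, w1, -⟩ := exists_partner S.alt S.nd (W := ⊥) (x := x) hx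
    have nx : ∀ v, B x v ≠ 0 → v ∉ F ∙ x := fun v n k => by
      obtain ⟨c, rfl⟩ := mem_span_singleton.1 k
      simp [S.alt.self_eq_zero] at n
    have w2 := nx w (by simp [w1])
    obtain ⟨a, a1, a2⟩ := exists_map S.alt S.nd (w := y) hx fun e => y2 (e ▸ zero_mem _)
    obtain ⟨b, b1, b2⟩ := exists_map S.alt S.nd (w := w) hx fun e => w2 (e ▸ zero_mem _)
    have f : ∀ i, ![1, a, b] i ∈ Isom B := fun i => by fin_cases i <;> simp [a1, b1, one_mem]
    refine le_antisymm (dc_le ![1, a, b] fun g hg => ?_) (le_dc _ f fun i j h => ?_)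
    · by_cases h1 : g x ∈ F ∙ x
      · exact ⟨0, g, mem_Pt.2 ⟨hg, h1⟩, 1, one_mem _, by simp⟩
      by_cases h2 : B x (g x) = 0
      · obtain ⟨k, k1, k2⟩ := exists_Cz S.alt S.nd y2 h1 (y1.trans h2.symm)
        exact ⟨1, (DC_Pt le a1 hg).2 ⟨k, cz k1, by
          rw [a2, k2]; exact mem_span_singleton_self _⟩⟩
      · obtain ⟨k, k1, k2⟩ := exists_Cz S.alt S.nd w2 (smul_notMem h1 (inv_ne_zero h2))
          (by simp [w1, h2])
        exact ⟨2, (DC_Pt le b1 hg).2 ⟨k, cz k1, by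
          rw [b2, k2]; exact smul_mem _ _ (mem_span_singleton_self _)⟩⟩
    · have key : ∀ g ∈ Isom B, ∀ g' ∈ Isom B, DC (Pt (Isom B) x) (Pt (Isom B) x) g g' →
          (g' x ∈ F ∙ x → g x ∈ F ∙ x) ∧ (B x (g' x) = 0 → B x (g x) = 0) := fun g hg g' hg' h => by
        obtain ⟨k, k1, k2⟩ := (DC_Pt le hg hg').1 h
        obtain ⟨c, hc⟩ := mem_span_singleton.1 k2
        obtain ⟨d, d0, hd⟩ := exists_coef hx (mem_Pt.1 k1).2
        refine ⟨fun e => (k1.2 _).1 (hc ▸ smul_mem _ _ e), fun e => ?_⟩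
        have := k1.1 x (g x)
        rw [← hc, hd] at this
        simpa [e] using this.symm
      have h1 := key _ (f i) _ (f j) h
      have h2 := key _ (f j) _ (f i) h.symm
      fin_cases i <;> fin_cases j <;>
        simp [a2, b2, y1, y2, w1, w2, S.alt.self_eq_zero] at h1 h2 ⊢
  · have h1 := H38.KL.idx_pt (T := Pt (Isom B) x) (R := Cz B x) hx
      (fun g hg => ⟨fun e => ⟨hg.1, e⟩, fun e => e.2⟩) (fun g hg => (mem_Pt.1 hg).2) fun c hc =>
        let ⟨g, g1, g2⟩ := exists_map S.alt S.nd hx (smul_ne_zero hc hx)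
        ⟨g, mem_Pt.2 ⟨g1, g2 ▸ smul_mem _ _ sx⟩, g2⟩
    have h2 := H38.KL.rel_orbit (T := Isom B) (R := Cz B x) x
      fun g hg => ⟨fun e => ⟨hg, e⟩, fun e => e.2⟩
    have h3 := ncard_compl (⊥ : Submodule F V)
    rw [← h1, mul_comm, Subgroup.relIndex_mul_relIndex _ _ _ cz le, h2, ← h3, finrank_bot,
      pow_zero, Nat.add_sub_cancel]
    exact congrArg _ (Set.ext fun v => ⟨fun ⟨g, _, e⟩ => by simpa [← e] using hx,
      fun hv => exists_map S.alt S.nd hx hv⟩)

end H39.KS
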