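import Cfsg.Agent.H97.OrSpec

/-! Commutators in symplectic groups of odd characteristic: double blocks (`JobD`). -/

set_option autoImplicit false
set_option linter.unusedSectionVars false

namespace H39.OrD

open Polynomial Module H53 H68.Ore0 H97.Or
open H59 (perp mem_perp)

universe u

variable {F : Type*} [Field F] {V : Type*} [AddCommGroup V] [Module F V] [FiniteDimensional F V]
  {B : V →ₗ[F] V →ₗ[F] F} {g g' : End F V} {v w : V} {e : F} {k : ℕ}

theorem ae_dec (p : F[X]) (x : V) : ∃ y, aeval g p x = p.eval e • x + nl g e y := by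
  obtain ⟨q, hq⟩ := X_sub_C_dvd_sub_C_eval (a := e) (p := p)
  refine ⟨aeval g q x, ?_⟩
  rw [sub_eq_iff_eq_add] at hq
  conv_lhs => rw [hq]
  rw [map_add, LinearMap.add_apply, ae_mul, aeval_C, Module.algebraMap_end_apply, add_comm,
    ← pow_one (X - C e), aeval_X_sub_C_pow, pow_one]

theorem pow_nl (j : ℕ) (x : V) : (nl g e ^ j) (nl g e x) = (nl g e ^ (j + 1)) x := by
  rw [pow_succ, End.mul_apply]

theorem nl_pow (j : ℕ) (x : V) : nl g e ((nl g e ^ j) x) = (nl g e ^ (j + 1)) x := by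
  rw [pow_succ', End.mul_apply]

theorem nl_inv (h1 : g * g' = 1) (h2 : g' * g = 1) (he : e * e = 1) :
    nl g' e = ((-e) • g') * nl g e ∧ nl g' e = nl g e * ((-e) • g') := by
  constructor <;> ext x
  · have := LinearMap.congr_fun h2 x
    rw [End.mul_apply, End.one_apply] at this
    simp [nl_apply, this, smul_sub, smul_smul, he]
  · have := LinearMap.congr_fun h1 x
    rw [End.mul_apply, End.one_apply] at this
    simp [nl_apply, this, smul_sub, smul_smul, he]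

theorem nl_inv_pow (h1 : g * g' = 1) (h2 : g' * g = 1) (he : e * e = 1) {j : ℕ} {x : V}
    (hx : (nl g e ^ (j + 1)) x = 0) : (nl g' e ^ j) x = (-1 : F) ^ j • (nl g e ^ j) x := by
  obtain ⟨k1, k2⟩ := nl_inv h1 h2 he
  have c : Commute ((-e) • g') (nl g e) := k1.symm.trans k2
  have h3 : ((-e) • g') ((nl g e ^ j) x) = -(nl g e ^ j) x := by
    rw [← nl_pow, nl_apply, sub_eq_zero] at hx
    have := LinearMap.congr_fun h2 ((nl g e ^ j) x)
    rw [End.mul_apply, hx, map_smul] at this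
    rw [LinearMap.smul_apply, neg_smul, this, End.one_apply]
  have h4 : ∀ n, (((-e) • g') ^ n) ((nl g e ^ j) x) = (-1 : F) ^ n • (nl g e ^ j) x := fun n => by
    induction n with
    | zero => simp
    | succ n ih => rw [pow_succ, End.mul_apply, h3, map_neg, ih, pow_succ, mul_neg_one, neg_smul]
  rw [k1, c.mul_pow, End.mul_apply, h4]

variable (h : Dbl B g ⊤ v w e k)
include h

theorem kill (x : V) : (nl g e ^ (k + 1)) x = 0 := h.kill x trivial

theorem span (x : V) : ∃ p q : F[X], aeval g p v + aeval g q w = x :=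
  mem_cy_sup.1 (h.eq ▸ Submodule.mem_top)

theorem dec (x : V) : ∃ (a b : F) (y : V), x = a • v + b • w + nl g e y := by
  obtain ⟨p, q, rfl⟩ := span h x
  obtain ⟨y, hy⟩ := ae_dec (g := g) (e := e) p v
  obtain ⟨z, hz⟩ := ae_dec (g := g) (e := e) q w
  exact ⟨_, _, y + z, by rw [hy, hz, map_add]; abel⟩

theorem ker {x : V} (hx : nl g e x = 0) :
    ∃ a b : F, x = a • (nl g e ^ k) v + b • (nl g e ^ k) w := by
  obtain ⟨p, q, rfl⟩ := span h x
  have h1 := (h.free ((X - C e) * p) ((X - C e) * q)).1 (by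
    rw [ae_mul, ae_mul, ← map_add, ← pow_one (X - C e), aeval_X_sub_C_pow, pow_one, hx])
  rw [pow_succ', mul_dvd_mul_iff_left (X_sub_C_ne_zero e), mul_dvd_mul_iff_left (X_sub_C_ne_zero e)] at h1
  obtain ⟨⟨p, rfl⟩, q, rfl⟩ := h1
  obtain ⟨a, b, y, hy⟩ := dec h (aeval g p v + aeval g q w)
  refine ⟨a, b, ?_⟩
  rw [ae_mul, ae_mul, ← map_add, aeval_X_sub_C_pow, hy, map_add, map_add, map_smul, map_smul, pow_nl,
    kill h, add_zero]

theorem ext_id {s : End F V} (h1 : ∀ x, s (g x) = g (s x)) (h2 : s v = v) (h3 : s w = w) (x : V) :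
    s x = x := by
  obtain ⟨p, q, rfl⟩ := span h x
  rw [map_add, intertwine_aeval s h1, intertwine_aeval s h1, h2, h3]

theorem top_rg {x y : V} (hx : x - y ∈ LinearMap.range (nl g e)) :
    (nl g e ^ k) x = (nl g e ^ k) y := by
  obtain ⟨z, hz⟩ := hx
  rw [← sub_eq_zero, ← map_sub, ← hz, pow_nl, kill h]

variable [Finite F] (h2 : (2 : F) ≠ 0) (hB : IsSF (σ := RingHom.id F) (-1) B) (hg : Inv B g)
include h2 hB hg

omit h2 in
theorem ort {x y : V} (hx : x ∈ LinearMap.range (nl g e)) (hy : nl g e y = 0) : B x y = 0 := by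
  obtain ⟨z, rfl⟩ := hx
  simpa using nl_zero hB hg h.sq (j := 1) (by simpa using hy) z

theorem even_k : Even k := by
  have := h.sign hB hg
  exact (neg_one_pow_eq_one_iff_even (fun a => h2 (by linear_combination -a))).1
    (by linear_combination -this)

/-- the polar decomposition -/
theorem polar {σ : End F V} (s2 : ∀ x, σ (σ x) = x) (sg : ∀ x y, B (σ (g x)) (σ (g y)) = B (σ x) (σ y))
    (sk : ∀ x y, nl g e y = 0 → B (σ x) (σ y) = -B x y) :
    ∃ R : End F V, Commute g R ∧ (∀ x, R (σ (R (σ x))) = x) ∧ Anti B (R * σ) ∧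
      ∀ x, R x - x ∈ LinearMap.range (nl g e) := by
  have hB₂ : IsSF (σ := RingHom.id F) (-1) (-pull B σ) :=
    ⟨hB.invol, hB.eps, fun x y => by simp [hB.symm (σ x) (σ y)], fun x hx => by
      rw [← s2 x, hB.nondeg (σ x) fun y => by simpa [s2] using hx (σ y), map_zero]⟩
  obtain ⟨S, a1, a2, -, a3⟩ := hB.exists_rep_form hB₂
  have a4 : Commute g S := a3 g hg fun x y => by simp [sg]
  replace a1 : ∀ x y, B (S x) y = -B (σ x) (σ y) := fun x y => by simpa using a1 x y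
  have a5 : ∀ x, S x - x ∈ LinearMap.range (nl g e) := fun x => by
    rw [← pow_one (nl g e), ← perp_ker_nl hB hg h.sq, hB.mem_perp']
    intro y hy
    rw [map_sub, LinearMap.sub_apply, a1, sk x y (by simpa using hy), neg_neg, sub_self]
  have a6 : Commute (S - 1) (nl g e) :=
    (a4.symm.sub_right (Algebra.commutes e S).symm).sub_left (Commute.one_left _)
  have a7 : ∀ n x, ∃ y, (nl g e ^ n) y = ((S - 1) ^ n) x := fun n => by
    induction n with
    | zero => exact fun x => ⟨x, rfl⟩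
    | succ n ih =>
      intro x
      obtain ⟨a, ha⟩ := ih x
      obtain ⟨b, hb⟩ := a5 a
      refine ⟨b, ?_⟩
      rw [← pow_nl, hb, pow_succ', End.mul_apply, ← ha, ← End.mul_apply (S - 1),
        (a6.pow_right n).eq, End.mul_apply]
      rfl
  obtain ⟨j, hj⟩ := exists_pow_sq_eq_of_isNilpotent h2 (a := S) ⟨k + 1, LinearMap.ext fun x => by
    obtain ⟨y, hy⟩ := a7 (k + 1) x
    rw [← hy, kill h]; rfl⟩
  have a8 : ∀ x, S (σ (S x)) = σ x := fun x => hB.ext_left fun y => by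
    rw [← s2 y, a1, s2, s2 (σ y), a1, neg_neg, s2]
  refine ⟨S ^ j, a4.pow_right j, fun x => ?_, fun x y => ?_, fun x => ?_⟩
  · have : ∀ n x, (S ^ n) (σ ((S ^ n) x)) = σ x := fun n => by
      induction n with
      | zero => exact fun _ => rfl
      | succ n ih =>
        intro x
        conv_lhs => rw [pow_succ' S n, End.mul_apply, ← pow_succ' S n, pow_succ S n, End.mul_apply]
        rw [ih, a8]
    rw [this, s2]
  · rw [End.mul_apply, End.mul_apply, ← a2.pow j, ← End.mul_apply (S ^ j), ← sq, hj, a1, s2, s2]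
  · clear hj
    induction j generalizing x with
    | zero => simp
    | succ n ih =>
      rw [pow_succ, End.mul_apply, ← sub_add_sub_cancel _ (S x)]
      exact add_mem (ih _) (a5 x)

theorem exists_s {G σ : End F V} (hG : Inv B G) (c1 : ∀ R, Commute g R → Commute G R)
    (hk : ∀ x, (nl G e ^ k) x = (nl g e ^ k) x) (hu : ∀ x, nl G e x ∈ LinearMap.range (nl g e))
    (hs : ∀ p q : F[X], σ (aeval g p v + aeval g q w) = aeval G p v + aeval G q (-w))
    (hs' : (∀ x, σ (g x) = G (σ x)) → ∀ x, σ (G x) = g (σ x)) :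
    ∃ s : End F V, (∀ x, s (s x) = x) ∧ Anti B s ∧ (∀ x, s (g x) = G (s x)) ∧
      s v - v ∈ LinearMap.range (nl g e) ∧ s w + w ∈ LinearMap.range (nl g e) := by
  have s1 : ∀ x, σ (g x) = G (σ x) := fun x => semi_g hs x (h.eq ▸ Submodule.mem_top)
  have sv : σ v = v := by simpa using hs 1 0
  have sw : σ w = -w := by simpa using hs 0 1
  have s2 : ∀ x, σ (σ x) = x := ext_id h (s := σ * σ) (fun x => by
    rw [End.mul_apply, End.mul_apply, s1, hs' s1]) (by simp [sv]) (by simp [sw])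
  have kv : nl g e ((nl g e ^ k) v) = 0 := by rw [nl_pow, kill h]
  have kw : nl g e ((nl g e ^ k) w) = 0 := by rw [nl_pow, kill h]
  have b1 : B v ((nl g e ^ k) v) = 0 := hB.eq_zero_comm.1 (h.alt v trivial)
  have b2 : B w ((nl g e ^ k) w) = 0 := hB.eq_zero_comm.1 (h.alt w trivial)
  obtain ⟨R, r1, r2, r3, r4⟩ := polar h h2 hB hg s2 (fun x y => by rw [s1, s1, hG]) fun x y hy => by
    obtain ⟨a, b, x, rfl⟩ := dec h x
    obtain ⟨c, d, rfl⟩ := ker h hy
    have m1 : σ (nl g e x) ∈ LinearMap.range (nl g e) := by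
      have := intertwine_nl (c := e) σ s1 1 x
      rw [pow_one, pow_one] at this
      exact this ▸ hu _
    simp only [map_add, map_smul, intertwine_nl σ s1 k, hk, sv, sw, map_neg, LinearMap.add_apply,
      LinearMap.smul_apply, LinearMap.neg_apply, b1, b2, ort h hB hg m1 kv, ort h hB hg m1 kw,
      ort h hB hg ⟨x, rfl⟩ kv, ort h hB hg ⟨x, rfl⟩ kw, smul_eq_mul]
    ring
  refine ⟨R * σ, r2, r3, fun x => ?_, ?_, ?_⟩
  · rw [End.mul_apply, s1, ← End.mul_apply R, ← (c1 R r1).eq]; rfl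
  · rw [End.mul_apply, sv]; exact r4 v
  · rw [End.mul_apply, sw, ← sub_neg_eq_add]; exact r4 _

theorem exists_si (h3 : g * g' = 1) (h4 : g' * g = 1) :
    ∃ s : End F V, (∀ x, s (s x) = x) ∧ Anti B s ∧ (∀ x, s (g x) = g' (s x)) ∧
      s v - v ∈ LinearMap.range (nl g e) ∧ s w + w ∈ LinearMap.range (nl g e) := by
  obtain ⟨σ, hs⟩ := h.exists_semi h3 (kill h v) (kill h (-w))
  refine exists_s h h2 hB hg (fun x y => ?_) (fun R hR => ?_) (fun x => ?_) (fun x => ?_) hs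
    fun s1 x => semi_inv (U := ⊤) h3 (fun _ _ => trivial) (fun x _ => s1 x) x trivial
  · rw [← hg, ← End.mul_apply g, ← End.mul_apply g, h3]; rfl
  · change g' * R = R * g'
    rw [← mul_one (g' * R), ← h3, ← mul_assoc, mul_assoc g', ← hR.eq, ← mul_assoc, h4, one_mul]
  · rw [nl_inv_pow h3 h4 h.sq (kill h x), (even_k h h2 hB hg).neg_one_pow, one_smul]
  · rw [(nl_inv h3 h4 h.sq).2]; exact ⟨_, rfl⟩

theorem exists_y : ∃ y : End F V, Anti B y ∧ ∀ x, y (g x) = g (y x) := by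
  obtain ⟨σ, hs⟩ := exists_of_ker ((cyL g v).coprod (cyL g w)) ((cyL g v).coprod (cyL g (-w)))
    fun m hm => by
      obtain ⟨a, b⟩ := (h.free m.1 m.2).1 hm
      have k0 : ∀ x, aeval g ((X - C e) ^ (k + 1)) x = 0 := fun x => by
        rw [aeval_X_sub_C_pow, kill h]
      exact (congrArg₂ (· + ·) (ae_dvd (k0 _) a) (ae_dvd (k0 _) b)).trans (add_zero 0)
  obtain ⟨y, -, a, b, -⟩ := exists_s h h2 hB hg hg (fun _ a => a) (fun _ => rfl) (fun x => ⟨x, rfl⟩)
    (fun p q => hs (p, q)) id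
  exact ⟨y, a, b⟩

omit h h2 hB hg

theorem one_case (h : Dbl B g ⊤ v w 1 k) (h2 : (2 : F) ≠ 0) (hB : IsSF (σ := RingHom.id F) (-1) B)
    (hg : Inv B g) : Com B g ∧ ∃ s h a b e₁ e₂, DD B g s h a b e₁ e₂ := by
  obtain ⟨g', h3, h4, -⟩ := hg.exists_inv hB
  obtain ⟨s, s2, sa, sg, sv, sw⟩ := exists_si h h2 hB hg h3 h4
  obtain ⟨y, ya, yg⟩ := exists_y h h2 hB hg
  obtain ⟨j, hj⟩ := exists_pow_sq_eq_of_isNilpotent h2 (a := g) ⟨k + 1, LinearMap.ext fun x => by
    simpa [nl] using kill h x⟩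
  have N1 : ∀ x, nl g 1 x = g x - x := fun x => by rw [nl_apply, one_smul]
  have e3 : ∀ x, g (g' x) = x := LinearMap.congr_fun h3
  have e4 : ∀ x, g' (g x) = x := LinearMap.congr_fun h4
  have c : Commute g g' := h3.trans h4.symm
  have r1 : ∀ x, (g ^ j) ((g' ^ j) x) = x := fun x => by
    rw [← End.mul_apply, ← c.mul_pow, h3, one_pow, End.one_apply]
  have r2 : ∀ x, (g' ^ j) ((g ^ j) x) = x := fun x => by
    rw [← End.mul_apply, ← c.symm.mul_pow, h4, one_pow, End.one_apply]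
  have r3 : ∀ x, (g ^ j) ((g ^ j) x) = g x := fun x => by rw [← End.mul_apply, ← sq, hj]
  have r4 : ∀ x, g ((g' ^ j) x) = (g ^ j) x := fun x => by rw [← r3, r1]
  have r5 : ∀ x, nl g 1 x = 0 → (g ^ j) x = x := fun x hx => by
    rw [End.pow_apply]
    exact Function.IsFixedPt.iterate (sub_eq_zero.1 ((N1 x).symm.trans hx)) j
  have r6 : ∀ x, nl g 1 x = 0 → (g' ^ j) x = x := fun x hx => by rw [← r5 x hx, r2, r5 x hx]
  have r7 : ∀ x, x + (g ^ j) x = 0 → x = 0 := fun x hx => by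
    have a := eq_neg_of_add_eq_zero_right hx
    rw [r5 x (by rw [N1, ← r3, a, map_neg, a, neg_neg, sub_self]), ← two_smul F] at hx
    exact (smul_eq_zero.1 hx).resolve_left h2
  have sg' : ∀ x, s (g' x) = g (s x) := fun x => by rw [← e3 (s (g' x)), ← sg, e3]
  have t1 : ∀ x, s ((g ^ j) x) = (g' ^ j) (s x) := intertwine_pow s sg j
  have t2 : ∀ x, s ((g' ^ j) x) = (g ^ j) (s x) := intertwine_pow s sg' j
  have hg' : Inv B g' := fun x y => by rw [← hg, e3, e3]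
  refine ⟨⟨s * y, g' ^ j, fun a b => by rw [End.mul_apply, End.mul_apply, sa, ya, neg_neg], hg'.pow j,
    LinearMap.ext fun x => ?_⟩, ?_⟩
  · have yg' : ∀ x, y (g' x) = g' (y x) := fun x => by rw [← e4 (y (g' x)), ← yg, e3]
    simp only [End.mul_apply]
    rw [intertwine_pow y yg' j, t2, r4]
  have ev := even_k h h2 hB hg
  have kv : ∀ x, nl g 1 ((nl g 1 ^ k) x) = 0 := fun x => by rw [nl_pow, kill h]
  have sk : ∀ x, s ((nl g 1 ^ k) x) = (nl g 1 ^ k) (s x) := fun x => by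
    rw [intertwine_nl s sg, nl_inv_pow h3 h4 h.sq (kill h _), ev.neg_one_pow, one_smul]
  have i2 : ∀ x : V, x = (2⁻¹ : F) • (x + x) := fun x => by
    rw [← two_smul F, smul_smul, inv_mul_cancel₀ h2, one_smul]
  obtain ⟨a, a1, a2⟩ : ∃ a, s a = a ∧ a - v ∈ LinearMap.range (nl g 1) :=
    ⟨(2⁻¹ : F) • (v + s v), by rw [map_smul, map_add, s2, add_comm], by
      rw [i2 v, ← smul_sub, ← i2 v, add_sub_add_left_eq_sub]; exact Submodule.smul_mem _ _ sv⟩
  obtain ⟨b₀, b1, b2⟩ : ∃ b, s b = -b ∧ b - w ∈ LinearMap.range (nl g 1) :=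
    ⟨(2⁻¹ : F) • (w - s w), by rw [map_smul, map_sub, s2, ← smul_neg, neg_sub], by
      rw [i2 w, ← smul_sub, ← i2 w, show w - s w - (w + w) = -(s w + w) by abel]
      exact Submodule.smul_mem _ _ (neg_mem sw)⟩
  have n0 : ∀ {x x' : V} (z : V), x - x' ∈ LinearMap.range (nl g 1) →
      B ((nl g 1 ^ k) z) x = B ((nl g 1 ^ k) z) x' := fun z hx => by
    rw [← sub_eq_zero, ← map_sub]
    exact hB.eq_zero_comm.1 (ort h hB hg hx (kv z))
  have n2 : B ((nl g 1 ^ k) w) a ≠ 0 := by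
    rw [n0 w a2, h.swap hB hg (x := v) trivial trivial]; exact neg_ne_zero.2 h.ne
  have s₂ : s ((nl g 1 ^ k) w) = -(nl g 1 ^ k) w := by
    rw [sk, top_rg h (y := -w) (by rwa [sub_neg_eq_add]), map_neg]
  have key : ∀ b, s b = -b → b - w ∈ LinearMap.range (nl g 1) →
      (B a b = 0 ∧ ∀ z, (g' ^ j) z + z = (g' ^ j) b → B z b ≠ 0) ∨ (g' ^ j = 1 ∧ B a b ≠ 0) →
      DD B g s (g' ^ j) a b ((nl g 1 ^ k) v) ((nl g 1 ^ k) w) := fun b k1 k2 k3 =>
    ⟨⟨s2, sa, fun x => by rw [sg, e3]⟩, hg'.pow j, fun x => by rw [r4, t1], fun x hx => r7 x (by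
      have := r1 x
      rw [hx, map_neg] at this
      rw [neg_eq_iff_eq_neg.1 this, add_neg_cancel]),
      fun x hx => ker h (by rw [N1, ← hx, r4, ← hx, r1, hx, hx, sub_self]), r6 _ (kv v), r6 _ (kv w),
      by rw [sk, top_rg h sv], s₂, a1, k1, by rw [n0 v k2]; exact h.ne, n2, k3⟩
  rcases Nat.eq_zero_or_pos k with rfl | k0
  · refine ⟨s, _, a, b₀, _, _, key b₀ b1 b2 (Or.inr ⟨LinearMap.ext fun x => r6 x (kv x), ?_⟩)⟩
    rw [show a = (nl g 1 ^ 0) v from top_rg h a2, n0 v b2]; exact h.ne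
  obtain ⟨m, rfl⟩ : ∃ m, k = m + 1 + 1 := by
    obtain ⟨i, rfl⟩ := ev
    exact ⟨i + i - 2, by omega⟩
  obtain ⟨q1, q2⟩ := nl_inv h3 h4 h.sq
  have cN : Commute (nl g 1) (nl g' 1) := by
    change _ * _ = _ * _
    conv_lhs => rw [q1, ← mul_assoc, ← q2]
  obtain ⟨w₁, w1, w2, w3⟩ : ∃ w₁, s w₁ = -w₁ ∧ w₁ ∈ LinearMap.range (nl g 1) ∧
      nl g 1 w₁ = (nl g 1 ^ (m + 1 + 1)) v + (nl g 1 ^ (m + 1 + 1)) v := by
    refine ⟨(nl g 1 ^ (m + 1)) a - s ((nl g 1 ^ (m + 1)) a), by rw [map_sub, s2, neg_sub],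
      sub_mem ⟨_, nl_pow m a⟩ ?_, ?_⟩
    · rw [intertwine_nl s sg, pow_succ', End.mul_apply, q2]; exact ⟨_, rfl⟩
    · rw [map_sub, nl_pow, intertwine_nl s sg, a1, ← End.mul_apply (nl g 1) (nl g' 1 ^ _),
        (cN.pow_right _).eq, End.mul_apply, nl_inv_pow h3 h4 h.sq (by rw [pow_nl, kill h]),
        (Nat.even_add_one.1 ev |> Nat.not_even_iff_odd.1).neg_one_pow, pow_nl, top_rg h a2, neg_one_smul,
        sub_neg_eq_add]
  obtain ⟨z₀, z0⟩ : ∃ z, z + (g ^ j) z = b₀ :=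
    LinearMap.surjective_of_injective (f := 1 + g ^ j) ((injective_iff_map_eq_zero _).2 r7) b₀
  generalize he₁ : (nl g 1 ^ (m + 1 + 1)) v = e₁ at *
  have ke : nl g 1 e₁ = 0 := he₁ ▸ kv v
  have hr := hg.pow j
  have d2 : ∀ z, B (z + (g ^ j) z) e₁ = 2 * B z e₁ := fun z => by
    rw [map_add, LinearMap.add_apply, two_mul, ← hr z, r5 _ ke]
  have al : ∀ z, B z z = 0 := fun z => by
    have := hB.symm z z
    exact (mul_eq_zero.1 (by rw [RingHom.id_apply] at this; linear_combination this)).resolve_left h2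
  have pol : ∀ z z', B z ((g ^ j) z') + B z' ((g ^ j) z) = B z ((g' ^ j) (nl g 1 z')) := fun z z' => by
    rw [hB.symm ((g ^ j) z), ← r1 z', hr, N1, map_sub, map_sub, r1, ← r3 z', r2, RingHom.id_apply]
    ring
  have z1 : B z₀ e₁ ≠ 0 := fun a => h.ne (by
    rw [he₁, ← he₁, ← n0 v b2, he₁, hB.eq_zero_comm, ← z0, d2, a, mul_zero])
  have a3 : B a ((nl g 1 ^ (m + 1 + 1)) w) ≠ 0 := fun a => n2 (hB.eq_zero_comm.1 a)
  obtain ⟨γ, hγ⟩ : ∃ γ, B z₀ ((g ^ j) z₀) + γ * B z₀ e₁ = 1 :=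
    ⟨(1 - B z₀ ((g ^ j) z₀)) / B z₀ e₁, by rw [div_mul_cancel₀ _ z1, add_sub_cancel]⟩
  obtain ⟨l, hl⟩ : ∃ l, B a b₀ + γ * B a w₁ + l * B a ((nl g 1 ^ (m + 1 + 1)) w) = 0 :=
    ⟨-(B a b₀ + γ * B a w₁) / _, by rw [div_mul_cancel₀ _ a3, add_neg_cancel]⟩
  have m1 : γ • w₁ + l • (nl g 1 ^ (m + 1 + 1)) w ∈ LinearMap.range (nl g 1) :=
    add_mem (Submodule.smul_mem _ _ w2) (Submodule.smul_mem _ _ ⟨_, nl_pow _ w⟩)
  refine ⟨s, _, a, b₀ + (γ • w₁ + l • (nl g 1 ^ (m + 1 + 1)) w), _, _, key _ ?_ ?_ (Or.inl ⟨?_, ?_⟩)⟩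
  · rw [map_add, map_add, map_smul, map_smul, b1, w1, s₂, smul_neg, smul_neg, neg_add, neg_add]
  · rw [add_sub_right_comm]; exact add_mem b2 m1
  · rw [map_add, map_add, map_smul, map_smul, ← add_assoc]; exact hl
  intro z hz
  obtain ⟨z, rfl⟩ : ∃ z', z = z₀ + z' := ⟨z - z₀, (add_sub_cancel _ _).symm⟩
  have u1 := congrArg (g ^ j) hz
  rw [map_add, r1, r1] at u1
  have u2 : z + (g ^ j) z = γ • w₁ + l • (nl g 1 ^ (m + 1 + 1)) w := by
    rw [← add_right_inj b₀, ← u1, ← z0, map_add]; abel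
  have u3 : nl g 1 z = γ • e₁ := by
    refine sub_eq_zero.1 (r7 _ ?_)
    have := congrArg (nl g 1) u2
    rw [map_add, map_add, map_smul, map_smul, w3, kv, smul_zero, add_zero, ← End.mul_apply (nl g 1),
      show nl g 1 * g ^ j = g ^ j * nl g 1 from
        (((Commute.refl g).sub_left (Algebra.commutes (1 : F) g)).pow_right j).eq, End.mul_apply] at this
    rw [map_sub, map_smul, r5 _ ke, sub_add_sub_comm, this, smul_add, sub_self]
  have u4 : B z e₁ = 0 := (mul_eq_zero.1 (by rw [← d2, u2]; exact ort h hB hg m1 ke)).resolve_left h2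
  have u5 := pol z₀ z
  have u6 := pol z z
  rw [u3, map_smul, r6 _ ke, map_smul, smul_eq_mul] at u5 u6
  rw [u4, mul_zero, ← two_mul, mul_eq_zero, or_iff_right h2] at u6
  rw [← u1, map_add (B _), al, zero_add]
  simp only [map_add, LinearMap.add_apply]
  rw [show B z₀ ((g ^ j) z₀) + B z ((g ^ j) z₀) + (B z₀ ((g ^ j) z) + B z ((g ^ j) z)) = 1 by
    linear_combination hγ + u5 + u6]
  exact one_ne_zero

theorem jobD : JobD.{u} := by
  intro F V _ _ _ _ _ B g v w e k h2 hB hg h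
  refine ⟨?_, fun he => one_case (he ▸ h) h2 hB hg⟩
  obtain ⟨g', h3, h4, -⟩ := hg.exists_inv hB
  obtain ⟨s, s2, sa, sg, -⟩ := exists_si h h2 hB hg h3 h4
  exact ⟨s, s2, sa, fun x => by rw [sg, ← End.mul_apply g, h3]; rfl⟩

end H39.OrD
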