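/- PS tower: the assembly. -/
import Cfsg.Agent.H39.PSSpec
import Cfsg.Agent.S3681
import Cfsg.Agent.S4220

set_option autoImplicit false

namespace H39.PS
open Equiv MulAction Finset

universe u
variable {α : Type u} [Fintype α] [DecidableEq α]

open Classical in
theorem T_miss (D : Finset α) (s : ℕ) (S : Finset α) :
    T^[s] (fun U => if Disjoint D U then (1 : ℝ) else 0) S ≤
      if Disjoint D S then (((S ∪ D)ᶜ.card.descFactorial s : ℕ) : ℝ) else 0 := by
  induction s generalizing S with
  | zero => simp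
  | succ s ih =>
    rw [T_succ]
    refine (sum_le_sum fun x _ => ih _).trans ?_
    by_cases h : Disjoint D S
    · rw [if_pos h, ← sum_filter]
      have e : Sᶜ.filter (fun x => Disjoint D (insert x S)) = (S ∪ D)ᶜ := by
        ext x; simp [disjoint_insert_right, h]
      rw [e, sum_congr rfl (g := fun _ => ((((S ∪ D)ᶜ.card - 1).descFactorial s : ℕ) : ℝ))
        fun x hx => by rw [insert_union, compl_insert, card_erase_of_mem hx], sum_const, nsmul_eq_mul]
      rcases (S ∪ D)ᶜ.card with _ | k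
      · simp
      · rw [Nat.succ_descFactorial_succ]; simp
    · rw [if_neg h]
      exact (sum_eq_zero fun x _ => if_neg fun c => h (c.mono_right (subset_insert _ _))).le

theorem fx_empty (G : Subgroup (Perm α)) : fx G ∅ = G := by ext g; simp [mem_fx]

theorem uni_case (ent : Ent.{u}) (uni : Uni.{u}) (G : Subgroup (Perm α)) (hn : 22 ≤ Fintype.card α)
    (hG : IsPreprimitive G α) (h2 : ¬ IsMultiplyPretransitive G α 2) (nu : NumU (Fintype.card α)) :
    (Nat.card G : ℝ) ≤ 4 ^ Fintype.card α := by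
  classical
  have hex : ∃ d, 2 * Fintype.card α ≤ 3 * d ^ 2 := ⟨Fintype.card α, by nlinarith⟩
  have hd := Nat.find_spec hex
  have hd2 : 2 ≤ Nat.find hex := by
    by_contra hc
    have : Nat.find hex ^ 2 ≤ 1 := by nlinarith
    omega
  have := ent α G ∅ (Qu (Fintype.card α) (Nat.find hex)) (fun s => by unfold Qu; positivity)
    fun a _ b _ hab s => ?_
  · rw [fx_empty, compl_empty, card_univ] at this
    exact this.trans (nu _ hd)
  obtain ⟨D, ha, hb, hD, hs⟩ := uni α G hn hG h2 a b hab
  refine (T_mono s ∅ fun U _ _ => ?_).trans ((T_miss D s ∅).trans ?_)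
  · unfold un
    split_ifs with h1 h3
    · exact le_rfl
    · obtain ⟨-, -, g, hg, e⟩ := h1
      obtain ⟨c, hc, hU⟩ := not_disjoint_iff.1 h3
      exact absurd e (hs c hc g (mem_fx.1 hg).1 ((mem_fx.1 hg).2 c hU))
    · exact zero_le_one
    · exact le_rfl
  · rw [if_pos (disjoint_empty_right _), empty_union, compl_empty, card_univ, card_compl, Qu]
    have h1 : (Fintype.card α - D.card).descFactorial s ≤
        (Fintype.card α - Nat.find hex).descFactorial s :=
      Nat.descFactorial_le _ (Nat.sub_le_sub_left (Nat.find_min' hex hD) _)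
    by_cases h0 : (Fintype.card α - 2).descFactorial s = 0
    · have h3 := Nat.descFactorial_le s (Nat.sub_le_sub_left hd2 (Fintype.card α))
      rw [h0, Nat.le_zero.1 (h1.trans (h3.trans h0.le))]; simp
    · rw [mul_div_cancel₀ _ (by exact_mod_cast h0)]; exact_mod_cast h1

theorem mul_case (ent : Ent.{u}) (ind : Ind.{u}) (tri : Tri.{u}) (red : Red.{u})
    (G : Subgroup (Perm α)) (t : ℕ) (ht : 2 ≤ t) (hn : t + 1 ≤ Fintype.card α)
    (h1 : IsMultiplyPretransitive G α t) (h2 : ¬ IsMultiplyPretransitive G α (t + 1))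
    (nu : ∀ v, 1 ≤ v → 2 * v ≤ Fintype.card α - t → ∃ Q, Par (Fintype.card α - t) v Q ∧
      ((Fintype.card α).descFactorial (t - 2) : ℝ) * Pr (Fintype.card α - t + 2) Q ≤ 4 ^ Fintype.card α) :
    (Nat.card G : ℝ) ≤ 4 ^ Fintype.card α := by
  obtain ⟨S, hS, hc, hT, hT'⟩ := red α G t ht hn h1 h2
  have hN : Sᶜ.card = Fintype.card α - t + 2 := by rw [card_compl, hS]; omega
  obtain ⟨v, hv, hw, hΓ⟩ := tri α G S hT hT'
  obtain ⟨Q, hQ, hb⟩ := nu v hv (by omega)
  have := ent α G S Q (fun s => by obtain ⟨-, y, ε, η, -, h⟩ := hQ; exact (h s).q0)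
    fun a ha b hb hab s => ?_
  · rw [hc, Nat.cast_mul]
    rw [hN] at this
    exact (mul_le_mul_of_nonneg_left this (by positivity)).trans hb
  obtain ⟨Γ, hg, hu⟩ := hΓ a ha b hb hab
  have hd : Disjoint ({a, b} : Finset α) S := by simp [ha, hb]
  have hW : (S ∪ {a, b})ᶜ.card = Fintype.card α - t := by
    rw [card_compl, card_union_of_disjoint hd.symm, card_pair hab, hS]; omega
  have := ind α Γ S {a, b} v Q hd hv (by omega) hg (hW ▸ hQ) s
  rw [hW] at this
  rw [hN, Nat.add_sub_cancel]
  exact (T_mono s S fun U hU _ => hu U hU).trans this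

theorem main (ent : Ent.{u}) (ind : Ind.{u}) (tri : Tri.{u}) (uni : Uni.{u}) (red : Red.{u})
    (n2a : N2a) (n2b : N2b) (nua : NUa) (nub : NUb) (G : Subgroup (Perm α))
    (hG : IsPreprimitive G α) (hA : ¬ alternatingGroup α ≤ G) :
    Nat.card G ≤ 4 ^ Fintype.card α := by
  classical
  by_cases hn : Fintype.card α < 22
  · have h := Cfsg.Agent.S3681.result (G := G) (Ω := α) hG (by
      rwa [show (toPermHom G α).range = G from by
        ext g; exact ⟨fun ⟨x, e⟩ => e ▸ x.2, fun h => ⟨⟨g, h⟩, rfl⟩⟩])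
    have h2 : ∀ n < 22, n.factorial ≤ 4 ^ n * ((n + 1) / 2).factorial := by decide +kernel
    exact Nat.le_of_mul_le_mul_right (h.trans (h2 _ hn)) (Nat.factorial_pos _)
  have hn' : 22 ≤ Fintype.card α := by omega
  suffices (Nat.card G : ℝ) ≤ 4 ^ Fintype.card α by exact_mod_cast this
  obtain ⟨r, ⟨k, p, hp, e, hk1, hk2, hk3, hk4⟩, nu⟩ : Num2 (Fintype.card α) := by
    by_cases h : Fintype.card α < 2 ^ 17
    exacts [n2a _ hn' h, n2b _ (by omega)]
  have hr : ¬ IsMultiplyPretransitive G α (r + 1) := fun h =>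
    hA (Cfsg.Agent.S4220.result G hp e hk1 hk2 hk3 hk4 h)
  have hex : ∃ t, ¬ IsMultiplyPretransitive G α (t + 1) := ⟨r, hr⟩
  have h1 := Nat.find_spec hex
  have h2 := Nat.find_min' hex hr
  have h3 : ∀ t < Nat.find hex, IsMultiplyPretransitive G α (t + 1) := fun t ht =>
    not_not.1 (Nat.find_min hex ht)
  generalize Nat.find hex = t at *
  rcases t with _ | _ | t
  · exact absurd (is_one_pretransitive_iff.2 hG.toIsPretransitive) h1
  · refine uni_case ent uni G hn' hG h1 ?_
    by_cases h : Fintype.card α < 2 ^ 17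
    exacts [nua _ hn' h, nub _ (by omega)]
  · have : 1 * 2 ≤ k * p := Nat.mul_le_mul hk1 hp.two_le
    exact mul_case ent ind tri red G (t + 1 + 1) (by omega) (by omega) (h3 _ (by omega)) h1
      fun v => nu _ v (by omega) h2

end H39.PS
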