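import Cfsg.Agent.H42.SimXBSpec

/-! # Tower SIM, chapter XA part two: slot CS (the centraliser of a field is simple) -/

set_option autoImplicit false

namespace H39.SimCS

open Matrix H0.Sim H42.SX

variable {n : ℕ} {F K : Type} [Field F] [Field K] [Algebra F K]

/-- `F ^ n` as a `K`-space through `ι`. -/
def V (_ : K →ₐ[F] Mt n F) : Type := Fin n → F

variable (ι : K →ₐ[F] Mt n F)

instance : AddCommGroup (V ι) := inferInstanceAs (AddCommGroup (Fin n → F))

instance : Module F (V ι) := inferInstanceAs (Module F (Fin n → F))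

instance : Module.Finite F (V ι) := inferInstanceAs (Module.Finite F (Fin n → F))

/-- The underlying vector. -/
def vec (v : V ι) : Fin n → F := v

noncomputable instance : Module K (V ι) where
  smul k v := (ι k *ᵥ vec ι v : Fin n → F)
  one_smul v := by
    change ι 1 *ᵥ vec ι v = vec ι v
    rw [map_one, one_mulVec]
  mul_smul a b v := by
    change ι (a * b) *ᵥ vec ι v = ι a *ᵥ (ι b *ᵥ vec ι v)
    rw [map_mul, mulVec_mulVec]
  smul_zero a := mulVec_zero (ι a)
  smul_add a v w := mulVec_add (ι a) (vec ι v) (vec ι w)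
  add_smul a b v := by
    change ι (a + b) *ᵥ vec ι v = ι a *ᵥ vec ι v + ι b *ᵥ vec ι v
    rw [map_add, add_mulVec]
  zero_smul v := by
    change ι 0 *ᵥ vec ι v = 0
    rw [map_zero, zero_mulVec]

instance : IsScalarTower F K (V ι) where
  smul_assoc c k v := by
    change ι (c • k) *ᵥ vec ι v = c • (ι k *ᵥ vec ι v)
    rw [map_smul, smul_mulVec]

/-- The centraliser acts `K`-linearly. -/
noncomputable def phi : cn ι →+* Module.End K (V ι) where
  toFun a :=
    { toFun := fun v => ((a : Mt n F) *ᵥ vec ι v : Fin n → F)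
      map_add' := fun v w => mulVec_add _ (vec ι v) (vec ι w)
      map_smul' := fun k v => by
        change (a : Mt n F) *ᵥ (ι k *ᵥ vec ι v) = ι k *ᵥ ((a : Mt n F) *ᵥ vec ι v)
        rw [mulVec_mulVec, mulVec_mulVec, (Subring.mem_centralizer_iff.1 a.2 (ι k) ⟨k, rfl⟩)] }
  map_one' := LinearMap.ext fun v => one_mulVec (vec ι v)
  map_mul' a b := LinearMap.ext fun v => (mulVec_mulVec (vec ι v) _ _).symm
  map_zero' := LinearMap.ext fun v => zero_mulVec (vec ι v)
  map_add' a b := LinearMap.ext fun v => add_mulVec _ _ (vec ι v)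

theorem ext_mulVec {a b : Mt n F} (h : ∀ v : Fin n → F, a *ᵥ v = b *ᵥ v) : a = b :=
  Matrix.toLin'.injective (LinearMap.ext fun v => by simpa using h v)

theorem phi_bij : Function.Bijective (phi ι) := by
  constructor
  · intro a b h
    exact Subtype.ext (ext_mulVec fun v => LinearMap.congr_fun h v)
  · intro f
    let g : (Fin n → F) →ₗ[F] (Fin n → F) := f.restrictScalars F
    have hg : ∀ v : Fin n → F, LinearMap.toMatrix' g *ᵥ v = g v := fun v => by
      rw [← Matrix.toLin'_apply, Matrix.toLin'_toMatrix']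
    refine ⟨⟨LinearMap.toMatrix' g, Subring.mem_centralizer_iff.2 ?_⟩, LinearMap.ext fun v => hg v⟩
    rintro _ ⟨k, rfl⟩
    refine ext_mulVec fun v => ?_
    rw [← mulVec_mulVec, ← mulVec_mulVec, hg, hg]
    exact (f.map_smul k v).symm

theorem jobCS : JobCS := by
  intro n F K _ _ _ ι hn
  have fin : Module.Finite K (V ι) := Module.Finite.of_restrictScalars_finite F K (V ι)
  have hF : Module.finrank F (V ι) = n := (Module.finrank_fin_fun F : Module.finrank F (Fin n → F) = n)
  have hm := Module.finrank_mul_finrank F K (V ι)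
  rw [hF] at hm
  have hd : 0 < Module.finrank K (V ι) := Nat.pos_of_ne_zero fun e => by
    rw [e, mul_zero] at hm
    omega
  have : Nonempty (Fin (Module.finrank K (V ι))) := ⟨⟨0, hd⟩⟩
  let e1 : cn ι ≃+* Module.End K (V ι) := RingEquiv.ofBijective (phi ι) (phi_bij ι)
  let e : cn ι ≃+* Matrix (Fin (Module.finrank K (V ι))) (Fin (Module.finrank K (V ι))) K :=
    e1.trans (LinearMap.toMatrixAlgEquiv (Module.finBasis K (V ι))).toRingEquiv
  refine ⟨IsSimpleRing.of_ringEquiv e.symm inferInstance, fun hc => ?_⟩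
  have h1 : Module.finrank K (V ι) = 1 := by
    by_contra hne
    have : Nontrivial (Fin (Module.finrank K (V ι))) := Fin.nontrivial_iff_two_le.2 (by omega)
    obtain ⟨i, j, hij⟩ := exists_pair_ne (Fin (Module.finrank K (V ι)))
    have h2 : ∀ x y : Matrix (Fin (Module.finrank K (V ι))) (Fin (Module.finrank K (V ι))) K,
        x * y = y * x := fun x y => by
      obtain ⟨a, rfl⟩ := e.surjective x
      obtain ⟨b, rfl⟩ := e.surjective y
      rw [← map_mul, ← map_mul]
      exact congrArg e (Subtype.ext (hc a a.2 b b.2))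
    have h3 := congrFun (congrFun (h2 (single i j 1) (single j i 1)) i) i
    rw [single_mul_single_same, single_mul_single_same] at h3
    simp [hij.symm] at h3
  refine ⟨by rw [h1, mul_one] at hm; exact hm, fun a ha => ?_⟩
  obtain ⟨c, hc', -⟩ := LinearMap.existsUnique_eq_smul_id_of_finrank_eq_one h1 (phi ι ⟨a, ha⟩)
  exact ⟨c, ext_mulVec fun v => (LinearMap.congr_fun hc' v).symm⟩

end H39.SimCS
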