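/- T3 tower (row S5228), slot Pc: a homomorphism from the power-commutator presentation. -/
import Cfsg.Agent.H11.T3Spec

set_option autoImplicit false

open Subgroup H11.T3 H11.T3.Co

universe v

namespace H39.T3Pc

variable {G H : Type*} [Group G] [Group H] {b a d c e f g h i j : G} {b' a' d' c' e' f' g' h' i' j' : H}

/-- one step of the collection process -/
theorem step {x u : G} {s : Set G} (hu : u ∈ closure (insert x s))
    (h0 : x ^ 3 ∈ closure s ∧ ∀ y ∈ s, x⁻¹ * y * x ∈ closure s) :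
    ∃ n : ZMod 3, ∃ t ∈ closure s, u = x ^ n.val * t := by
  obtain ⟨h3, hc⟩ := h0
  have h1 : ∀ t ∈ closure s, x⁻¹ * t * x ∈ closure s := fun t ht => by
    simpa using ((closure_le ((closure s).comap (MulAut.conj x⁻¹).toMonoidHom)).2
      fun y hy => by simpa using hc y hy) ht
  have h2 : ∀ n : ℕ, ∀ t ∈ closure s, (x ^ n)⁻¹ * t * x ^ n ∈ closure s := fun n => by
    induction n with
    | zero => simp
    | succ n ih => exact fun t ht => by simpa [pow_succ, mul_assoc] using h1 _ (ih t ht)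
  let K : Subgroup G :=
    { carrier := {u | ∃ n : ℕ, ∃ t ∈ closure s, u = x ^ n * t}
      one_mem' := ⟨0, 1, one_mem _, by simp⟩
      mul_mem' := by
        rintro _ _ ⟨n, t, ht, rfl⟩ ⟨m, r, hr, rfl⟩
        exact ⟨n + m, _, mul_mem (h2 m t ht) hr, by group⟩
      inv_mem' := by
        rintro _ ⟨n, t, ht, rfl⟩
        exact ⟨2 * n, _, mul_mem (h2 (2 * n) _ (inv_mem ht)) (inv_mem (pow_mem h3 n)), by group⟩ }
  obtain ⟨n, t, ht, rfl⟩ := (closure_le K).2 (Set.insert_subset ⟨1, 1, one_mem _, by simp⟩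
    fun y hy => ⟨0, y, subset_closure hy, by simp⟩) hu
  exact ⟨n, _, mul_mem (pow_mem h3 (n / 3)) ht, by
    rw [ZMod.val_natCast, ← mul_assoc, ← pow_mul, ← pow_add, Nat.mod_add_div]⟩

/-- the normal word -/
def wd (b a d c e f g h i j : G) (u : Co) : G := b ^ u.b.val * (a ^ u.a.val * (d ^ u.d.val * (c ^ u.c.val *
  (e ^ u.e.val * (f ^ u.f.val * (g ^ u.g.val * (h ^ u.h.val * (i ^ u.i.val * (j ^ u.j.val * 1)))))))))

/-- the generators -/
def gn (b a d c e f g h i j : G) : Set G := insert b (insert a 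
  (insert d (insert c (insert e (insert f (insert g (insert h (insert i (insert j ∅)))))))))

theorem nf (R : Rel b a d c e f g h i j) {x : G} (hx : x ∈ closure (gn b a d c e f g h i j)) :
    ∃ u, x = wd b a d c e f g h i j u := by
  obtain ⟨nb, xb, hbb, rfl⟩ := step hx (by
    simp only [Set.forall_mem_insert, Set.forall_mem_empty, mul_assoc, inv_mul_cancel_left,
      R.pb, R.qab, R.qdb, R.qcb, R.qeb, R.qfb, R.qgb, R.qhb, R.qib, R.qjb]
    repeat' first
      | constructor | apply mul_mem | apply pow_mem | apply one_mem | (refine Subgroup.subset_closure ?_; simp))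
  obtain ⟨na, xa, haa, rfl⟩ := step hbb (by
    simp only [Set.forall_mem_insert, Set.forall_mem_empty, mul_assoc, inv_mul_cancel_left,
      R.pa, R.qda, R.qca, R.qea, R.qfa, R.qga, R.qha, R.qia, R.qja]
    repeat' first
      | constructor | apply mul_mem | apply pow_mem | apply one_mem | (refine Subgroup.subset_closure ?_; simp))
  obtain ⟨nd, xd, hdd, rfl⟩ := step haa (by
    simp only [Set.forall_mem_insert, Set.forall_mem_empty, mul_assoc, inv_mul_cancel_left,
      R.pd, R.qcd, R.qed, R.qfd, R.qgd, R.qhd, R.qid, R.qjd]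
    repeat' first
      | constructor | apply mul_mem | apply pow_mem | apply one_mem | (refine Subgroup.subset_closure ?_; simp))
  obtain ⟨nc, xc, hcc, rfl⟩ := step hdd (by
    simp only [Set.forall_mem_insert, Set.forall_mem_empty, mul_assoc, inv_mul_cancel_left,
      R.pc, R.qec, R.qfc, R.qgc, R.qhc, R.qic, R.qjc]
    repeat' first
      | constructor | apply mul_mem | apply pow_mem | apply one_mem | (refine Subgroup.subset_closure ?_; simp))
  obtain ⟨ne, xe, hee, rfl⟩ := step hcc (by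
    simp only [Set.forall_mem_insert, Set.forall_mem_empty, mul_assoc, inv_mul_cancel_left,
      R.pe, R.qfe, R.qge, R.qhe, R.qie, R.qje]
    repeat' first
      | constructor | apply mul_mem | apply pow_mem | apply one_mem | (refine Subgroup.subset_closure ?_; simp))
  obtain ⟨nf, xf, hff, rfl⟩ := step hee (by
    simp only [Set.forall_mem_insert, Set.forall_mem_empty, mul_assoc, inv_mul_cancel_left,
      R.pf, R.qgf, R.qhf, R.qif, R.qjf]
    repeat' first
      | constructor | apply mul_mem | apply pow_mem | apply one_mem | (refine Subgroup.subset_closure ?_; simp))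
  obtain ⟨ng, xg, hgg, rfl⟩ := step hff (by
    simp only [Set.forall_mem_insert, Set.forall_mem_empty, mul_assoc, inv_mul_cancel_left,
      R.pg, R.qhg, R.qig, R.qjg]
    repeat' first
      | constructor | apply mul_mem | apply pow_mem | apply one_mem | (refine Subgroup.subset_closure ?_; simp))
  obtain ⟨nh, xh, hhh, rfl⟩ := step hgg (by
    simp only [Set.forall_mem_insert, Set.forall_mem_empty, mul_assoc, inv_mul_cancel_left,
      R.ph, R.qih, R.qjh]
    repeat' first
      | constructor | apply mul_mem | apply pow_mem | apply one_mem | (refine Subgroup.subset_closure ?_; simp))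
  obtain ⟨ni, xi, hii, rfl⟩ := step hhh (by
    simp only [Set.forall_mem_insert, Set.forall_mem_empty, mul_assoc, inv_mul_cancel_left,
      R.pi, R.qji]
    repeat' first
      | constructor | apply mul_mem | apply pow_mem | apply one_mem | (refine Subgroup.subset_closure ?_; simp))
  obtain ⟨nj, xj, hjj, rfl⟩ := step hii (by
    simp only [Set.forall_mem_insert, Set.forall_mem_empty, mul_assoc, inv_mul_cancel_left,
      R.pj]
    repeat' first
      | constructor | apply mul_mem | apply pow_mem | apply one_mem | (refine Subgroup.subset_closure ?_; simp))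
  rw [Subgroup.closure_empty, mem_bot] at hjj
  exact ⟨⟨nb, na, nd, nc, ne, nf, ng, nh, ni, nj⟩, by rw [hjj]; rfl⟩

theorem rel_prod (R : Rel b a d c e f g h i j) (R' : Rel b' a' d' c' e' f' g' h' i' j') :
    Rel (b, b') (a, a') (d, d') (c, c') (e, e') (f, f') (g, g') (h, h') (i, i') (j, j') :=
  ⟨Prod.ext R.pb R'.pb, Prod.ext R.pa R'.pa, Prod.ext R.pd R'.pd, Prod.ext R.pc R'.pc, Prod.ext R.pe R'.pe,
    Prod.ext R.pf R'.pf, Prod.ext R.pg R'.pg, Prod.ext R.ph R'.ph, Prod.ext R.pi R'.pi, Prod.ext R.pj R'.pj,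
    Prod.ext R.qab R'.qab, Prod.ext R.qdb R'.qdb, Prod.ext R.qcb R'.qcb, Prod.ext R.qeb R'.qeb,
    Prod.ext R.qfb R'.qfb, Prod.ext R.qgb R'.qgb, Prod.ext R.qhb R'.qhb, Prod.ext R.qib R'.qib,
    Prod.ext R.qjb R'.qjb, Prod.ext R.qda R'.qda, Prod.ext R.qca R'.qca, Prod.ext R.qea R'.qea,
    Prod.ext R.qfa R'.qfa, Prod.ext R.qga R'.qga, Prod.ext R.qha R'.qha, Prod.ext R.qia R'.qia,
    Prod.ext R.qja R'.qja, Prod.ext R.qcd R'.qcd, Prod.ext R.qed R'.qed, Prod.ext R.qfd R'.qfd,
    Prod.ext R.qgd R'.qgd, Prod.ext R.qhd R'.qhd, Prod.ext R.qid R'.qid, Prod.ext R.qjd R'.qjd,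
    Prod.ext R.qec R'.qec, Prod.ext R.qfc R'.qfc, Prod.ext R.qgc R'.qgc, Prod.ext R.qhc R'.qhc,
    Prod.ext R.qic R'.qic, Prod.ext R.qjc R'.qjc, Prod.ext R.qfe R'.qfe, Prod.ext R.qge R'.qge,
    Prod.ext R.qhe R'.qhe, Prod.ext R.qie R'.qie, Prod.ext R.qje R'.qje, Prod.ext R.qgf R'.qgf,
    Prod.ext R.qhf R'.qhf, Prod.ext R.qif R'.qif, Prod.ext R.qjf R'.qjf, Prod.ext R.qhg R'.qhg,
    Prod.ext R.qig R'.qig, Prod.ext R.qjg R'.qjg, Prod.ext R.qih R'.qih, Prod.ext R.qjh R'.qjh,
    Prod.ext R.qji R'.qji⟩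

theorem wd_fst (u : Co) : (wd (b, b') (a, a') (d, d') (c, c') (e, e') (f, f') (g, g') (h, h') (i, i')
    (j, j') u).1 = wd b a d c e f g h i j u := rfl

theorem rel_Co : Rel (xb 1) (xa 1) (xd 1) (xc 1) (xe 1) (xf 1) (xg 1) (xh 1) (xi 1) (xj 1) := by
  constructor <;> decide +kernel

theorem wd_Co (u : Co) :
    wd (xb 1) (xa 1) (xd 1) (xc 1) (xe 1) (xf 1) (xg 1) (xh 1) (xi 1) (xj 1) u = u := by
  have k : ∀ t : ZMod 3, xb 1 ^ t.val = xb t ∧ xa 1 ^ t.val = xa t ∧ xd 1 ^ t.val = xd t ∧ xc 1 ^ t.val = xc t ∧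
      xe 1 ^ t.val = xe t ∧ xf 1 ^ t.val = xf t ∧ xg 1 ^ t.val = xg t ∧ xh 1 ^ t.val = xh t ∧
      xi 1 ^ t.val = xi t ∧ xj 1 ^ t.val = xj t := by
    decide +kernel
  have k1 : xg u.g * (xh u.h * (xi u.i * (xj u.j * 1))) = ⟨0, 0, 0, 0, 0, 0, u.g, u.h, u.i, u.j⟩ := by
    ext <;> simp [xg, xh, xi, xj]
  have k2 : xc u.c * (xe u.e * (xf u.f * ⟨0, 0, 0, 0, 0, 0, u.g, u.h, u.i, u.j⟩)) =
      ⟨0, 0, 0, u.c, u.e, u.f, u.g, u.h, u.i, u.j⟩ := by
    ext <;> simp [xc, xe, xf]
  simp only [wd, k, k1, k2]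
  ext <;> simp [xb, xa, xd]

theorem jobPc : JobPc.{v} := fun G _ b a d c e f g h i j R => by
  let π := (MonoidHom.fst Co G).comp (closure (gn (xb 1, b) (xa 1, a) (xd 1, d) (xc 1, c) (xe 1, e)
    (xf 1, f) (xg 1, g) (xh 1, h) (xi 1, i) (xj 1, j))).subtype
  have hπ : Function.Bijective π := by
    refine ⟨(injective_iff_map_eq_one π).2 fun ⟨x, hx⟩ k => ?_, fun u => ⟨⟨wd (xb 1, b) (xa 1, a) (xd 1, d)
      (xc 1, c) (xe 1, e) (xf 1, f) (xg 1, g) (xh 1, h) (xi 1, i) (xj 1, j) u, ?_⟩,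
      (wd_fst ..).trans (wd_Co u)⟩⟩
    · obtain ⟨u, rfl⟩ := nf (rel_prod rel_Co R) hx
      obtain rfl : u = 1 := (wd_Co u).symm.trans ((wd_fst ..).symm.trans k)
      exact Subtype.ext (by simp [wd])
    · unfold wd
      repeat' first | apply mul_mem | apply pow_mem | apply one_mem | (refine Subgroup.subset_closure ?_; simp [gn])
  refine ⟨((MonoidHom.snd Co G).comp (Subgroup.subtype _)).comp
    (MulEquiv.ofBijective π hπ).symm.toMonoidHom, ?_⟩
  exact congrArg (fun x => x.1.2) ((MulEquiv.ofBijective π hπ).symm_apply_apply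
    ⟨(xj 1, j), subset_closure (by simp [gn])⟩)

end H39.T3Pc
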