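import Cfsg.Agent.H91.VCSpec

/-! VC tower (row S4070), slot SV: explicit size vectors. -/

set_option autoImplicit false

namespace H39.VCSV

open H91.VC

/-- the statement for explicit lists -/
abbrev Ok (k b c c' L : ℕ) (l : List (List ℕ)) (r : List ℕ) : Prop :=
  (∀ j < c', ∑ i ∈ Finset.range c, (l.getD j []).getD i 0 = k ∧
    b + (l.getD j []).getD (r.getD j c) 0 ≤ k ∧ ∀ i < c, i ≠ r.getD j c → (l.getD j []).getD i 0 ≤ L) ∧
    ∀ j < c', ∀ j' < c', (∀ i < c, (l.getD j []).getD i 0 = (l.getD j' []).getD i 0) → j = j'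

theorem sv {k b c c' L : ℕ} (b' : ℕ) (l : List (List ℕ)) (r : List ℕ) (hb : b ≤ b')
    (h : Ok k b' c c' L l r) : SV k b c c' L :=
  ⟨_, _, fun j hj => ⟨(h.1 j hj).1, (Nat.add_le_add_right hb _).trans (h.1 j hj).2.1, (h.1 j hj).2.2⟩, h.2⟩

variable {k b : ℕ} (h2 : 2 ≤ k) (hk : b ≤ k) (h4 : b ≤ 4) (hp : k.Prime → b ≤ 2)
include h2 hk h4 hp

theorem five : SV k b 5 5 1 := by
  by_cases h : 6 ≤ k
  · obtain ⟨m, rfl⟩ := Nat.exists_eq_add_of_le' h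
    refine sv 4 [[m + 2, 1, 1, 1, 1], [1, m + 2, 1, 1, 1], [1, 1, m + 2, 1, 1], [1, 1, 1, m + 2, 1],
      [1, 1, 1, 1, m + 2]] [0, 1, 2, 3, 4] h4 ?_
    simp only [Ok, Nat.forall_lt_succ_right, Finset.sum_range_succ]
    simp
    omega
  push Not at h
  interval_cases k
  · exact sv 2 [[1, 1], [0, 1, 1], [0, 0, 1, 1], [0, 0, 0, 1, 1], [1, 0, 0, 0, 1]] [] hk (by decide)
  · exact sv 3 [[1, 1, 1], [0, 1, 1, 1], [0, 0, 1, 1, 1], [1, 0, 0, 1, 1], [1, 1, 0, 0, 1]] [] hk (by decide)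
  · exact sv 4 [[1, 1, 1, 1], [0, 1, 1, 1, 1], [1, 0, 1, 1, 1], [1, 1, 0, 1, 1], [1, 1, 1, 0, 1]] [] hk
      (by decide)
  · exact sv 2 [[2, 0, 1, 1, 1], [1, 2, 0, 1, 1], [1, 1, 2, 0, 1], [1, 1, 1, 2, 0], [0, 1, 1, 1, 2]]
      [0, 1, 2, 3, 4] (hp (by norm_num)) (by decide)

omit hp in
theorem four : SV k b 4 5 2 := by
  by_cases h : 7 ≤ k
  · obtain ⟨m, rfl⟩ := Nat.exists_eq_add_of_le' h
    refine sv 4 [[m + 3, 1, 1, 2], [m + 3, 1, 2, 1], [m + 3, 2, 1, 1], [1, m + 3, 1, 2],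
      [1, m + 3, 2, 1]] [0, 0, 0, 1, 1] h4 ?_
    simp only [Ok, Nat.forall_lt_succ_right, Finset.sum_range_succ]
    simp
    omega
  push Not at h
  interval_cases k
  · exact sv 2 [[1, 1], [1, 0, 1], [2], [0, 2], [0, 0, 2]] [] hk (by decide)
  · exact sv 3 [[1, 1, 1], [1, 1, 0, 1], [2, 1], [1, 2], [0, 1, 2]] [] hk (by decide)
  · exact sv 4 [[1, 1, 1, 1], [2, 2], [2, 0, 2], [2, 0, 0, 2], [0, 2, 2]] [] hk (by decide)
  · exact sv 5 [[2, 2, 1], [2, 2, 0, 1], [2, 1, 2], [2, 0, 2, 1], [2, 1, 1, 1]] [] hk (by decide)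
  · exact sv 6 [[2, 2, 2], [2, 2, 0, 2], [2, 0, 2, 2], [0, 2, 2, 2], [2, 2, 1, 1]] [] hk (by decide)

omit hp in
theorem three : SV k b 3 5 3 := by
  by_cases h : 8 ≤ k
  · obtain ⟨m, rfl⟩ := Nat.exists_eq_add_of_le' h
    refine sv 4 [[m + 4, 1, 3], [m + 4, 3, 1], [1, m + 4, 3], [3, m + 4, 1], [1, 3, m + 4]]
      [0, 0, 1, 1, 2] h4 ?_
    simp only [Ok, Nat.forall_lt_succ_right, Finset.sum_range_succ]
    simp
    omega
  push Not at h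
  interval_cases k
  · exact sv 2 [[2], [0, 2], [0, 0, 2], [1, 1], [1, 0, 1]] [] hk (by decide)
  · exact sv 3 [[3], [0, 3], [0, 0, 3], [1, 1, 1], [2, 1]] [] hk (by decide)
  · exact sv 4 [[3, 1], [1, 3], [0, 1, 3], [2, 2], [2, 1, 1]] [] hk (by decide)
  · exact sv 5 [[3, 2], [2, 3], [0, 2, 3], [3, 1, 1], [2, 2, 1]] [] hk (by decide)
  · exact sv 6 [[3, 3], [3, 0, 3], [0, 3, 3], [2, 2, 2], [1, 2, 3]] [] hk (by decide)
  · exact sv 7 [[3, 3, 1], [3, 1, 3], [1, 3, 3], [3, 2, 2], [2, 3, 2]] [] hk (by decide)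

theorem two : SV k b 2 3 2 ∨ SV k b 2 4 3 ∨ SV k b 2 5 7 := by
  by_cases h : 12 ≤ k
  · obtain ⟨m, rfl⟩ := Nat.exists_eq_add_of_le' h
    refine .inr (.inr (sv 4 [[4, m + 8], [5, m + 7], [6, m + 6], [7, m + 5], [m + 8, 4]]
      [1, 1, 1, 1, 0] h4 ?_))
    simp only [Ok, Nat.forall_lt_succ_right, Finset.sum_range_succ]
    simp
    omega
  push Not at h
  interval_cases k
  · exact .inl (sv 2 [[0, 2], [1, 1], [2]] [] hk (by decide))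
  · exact .inr (.inl (sv 3 [[0, 3], [1, 2], [2, 1], [3]] [] hk (by decide)))
  all_goals refine .inr (.inr ?_)
  · exact sv 4 [[0, 4], [1, 3], [2, 2], [3, 1], [4]] [] hk (by decide)
  · exact sv 5 [[0, 5], [1, 4], [2, 3], [3, 2], [4, 1]] [] hk (by decide)
  · exact sv 6 [[0, 6], [1, 5], [2, 4], [3, 3], [4, 2]] [] hk (by decide)
  · exact sv 7 [[0, 7], [1, 6], [2, 5], [3, 4], [4, 3]] [] hk (by decide)
  · exact sv 8 [[1, 7], [2, 6], [3, 5], [4, 4], [5, 3]] [] hk (by decide)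
  · exact sv 9 [[2, 7], [3, 6], [4, 5], [5, 4], [6, 3]] [] hk (by decide)
  · exact sv 10 [[3, 7], [4, 6], [5, 5], [6, 4], [7, 3]] [] hk (by decide)
  · exact sv 2 [[2, 9], [3, 8], [4, 7], [5, 6], [6, 5]] [1, 1] (hp (by norm_num)) (by decide)

omit h2 hk h4 hp in
theorem jobSV : JobSV := fun _ _ h2 hk h4 hp =>
  ⟨five h2 hk h4 hp, four h2 hk h4, three h2 hk h4, two h2 hk h4 hp⟩

end H39.VCSV
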